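import Mathlib
import Cfsg.Agent.S0071
import Cfsg.Agent.Lib.Coprime.Generation
import Cfsg.Agent.Lib.Coprime.Coset
import Cfsg.Agent.Lib.Solvable.Hall

/-!
# A normal 2-complement modulo a normal 2-subgroup, with a Hall subgroup above it
-/

set_option autoImplicit false
set_option linter.unusedVariables false
set_option linter.style.haveILetI false

namespace Cfsg.Agent.Lib.NilMax

open Subgroup
open scoped commutatorElement

section Power

variable {X : Type*} [Group X] [Finite X]

theorem mem_normalizer_of_conj_mem' {H : Subgroup X} {g : X} (h : ∀ y ∈ H, g * y * g⁻¹ ∈ H) :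
    g ∈ normalizer (H : Set X) := by
  rw [mem_normalizer_iff]
  intro y
  refine ⟨fun hy => h y hy, fun hy => ?_⟩
  let f : H → H := fun z => ⟨g * z * g⁻¹, h z z.2⟩
  have hf : Function.Injective f := by
    intro a c hac
    have h1 : g * (a : X) * g⁻¹ = g * (c : X) * g⁻¹ := congrArg Subtype.val hac
    apply Subtype.ext
    simpa using h1
  obtain ⟨z, hz⟩ := (Finite.injective_iff_surjective.mp hf) ⟨_, hy⟩
  have h2 : g * (z : X) * g⁻¹ = g * y * g⁻¹ := congrArg Subtype.val hz
  have h3 : (z : X) = y := by simpa using h2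
  rw [← h3]
  exact z.2

/-- A power of `x`, congruent to `1` modulo the odd number `m'`, of odd order. -/
theorem exists_pow_odd_and_mod (x : X) {m' : ℕ} (hm' : Odd m') :
    ∃ k : ℕ, Odd (orderOf (x ^ k)) ∧ k ≡ 1 [MOD m'] := by
  have h0 : orderOf x ≠ 0 := (orderOf_pos x).ne'
  obtain ⟨a, m, hm, hoa⟩ := Nat.exists_eq_two_pow_mul_odd h0
  have hcop : (2 ^ a).Coprime m' := Nat.Coprime.pow_left _ (Nat.coprime_two_left.mpr hm')
  let kk := Nat.chineseRemainder hcop 0 1
  refine ⟨kk.1, ?_, kk.2.2⟩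
  have h1 : 2 ^ a ∣ kk.1 := (Nat.modEq_zero_iff_dvd).mp kk.2.1
  obtain ⟨b, hb⟩ := h1
  have h2 : (x ^ kk.1) ^ m = 1 := by
    rw [← pow_mul, hb]
    have : 2 ^ a * b * m = orderOf x * b := by rw [hoa]; ring
    rw [this, pow_mul, pow_orderOf_eq_one, one_pow]
  exact Odd.of_dvd_nat hm (orderOf_dvd_of_pow_eq_one h2)

/-- An odd-order element of an image lifts to an odd-order element. -/
theorem exists_odd_lift {Y : Type*} [Group Y] (f : X →* Y) (hf : Function.Surjective f) {y : Y}
    (hy : Odd (orderOf y)) : ∃ x, f x = y ∧ Odd (orderOf x) := by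
  obtain ⟨x₀, rfl⟩ := hf y
  obtain ⟨k, hk1, hk2⟩ := exists_pow_odd_and_mod x₀ hy
  refine ⟨x₀ ^ k, ?_, hk1⟩
  rw [map_pow]
  have := pow_eq_pow_iff_modEq.mpr hk2
  simpa using this

/-- Modifying an odd element by an element of a subgroup it normalises: a power of the product
has odd order and still lies in the same coset. -/
theorem exists_odd_pow {R : Subgroup X} {x c : X} (hx : x ∈ normalizer (R : Set X))
    (hodd : Odd (orderOf x)) (hc : c ∈ R) :
    ∃ k : ℕ, Odd (orderOf ((c * x) ^ k)) ∧ (c * x) ^ k * x⁻¹ ∈ R := by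
  obtain ⟨k, hk1, hk2⟩ := exists_pow_odd_and_mod (c * x) hodd
  refine ⟨k, hk1, ?_⟩
  have hind : ∀ j : ℕ, (c * x) ^ j * (x ^ j)⁻¹ ∈ R := by
    intro j
    induction j with
    | zero => simp
    | succ j ih =>
      have h1 : x ^ j * c * (x ^ j)⁻¹ ∈ R := by
        have hxj : x ^ j ∈ normalizer (R : Set X) := pow_mem hx j
        exact (mem_normalizer_iff.mp hxj c).mp hc
      have h2 : (c * x) ^ (j + 1) * (x ^ (j + 1))⁻¹ =
          ((c * x) ^ j * (x ^ j)⁻¹) * (x ^ j * c * (x ^ j)⁻¹) := by
        rw [pow_succ, pow_succ]; group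
      rw [h2]
      exact R.mul_mem ih h1
  have h3 : x ^ k = x := by
    have := pow_eq_pow_iff_modEq.mpr hk2
    simpa using this
  have := hind k
  rwa [h3] at this

end Power

variable {X : Type*} [Group X] [Finite X]

/-- The structure of a group modulo a normal 2-subgroup all of whose overgroups in a Sylow
2-subgroup are centralised by the odd elements normalising them. -/
theorem hall_of_quot (W : Subgroup X) [W.Normal] (hW2 : IsPGroup 2 W) (S : Sylow 2 X)
    (hWS : W ≤ S)
    (hmax : ∀ P : Subgroup X, W < P → P ≤ S → ∀ y ∈ normalizer (P : Set X), Odd (orderOf y) →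
      y ∈ centralizer (P : Set X)) :
    ∃ L : Subgroup X, Odd (Nat.card L) ∧ (W ⊔ L).Normal ∧ (∀ y, Odd (orderOf y) → y ∈ W ⊔ L) ∧
      (∀ s ∈ (S : Subgroup X), ∀ s' ∈ (S : Subgroup X), s ∉ W → s' ∉ W → s * s' ∉ W →
        (∀ t ∈ (S : Subgroup X), t * t ∈ W) →
        (∀ t ∈ (S : Subgroup X), ∀ t' ∈ (S : Subgroup X), ⁅t, t'⁆ ∈ W) →
        ∀ l ∈ L, ∃ c ∈ centralizer (W : Set X), c⁻¹ * l ∈ W) := by
  classical
  let π : X →* X ⧸ W := QuotientGroup.mk' W
  have hπ : Function.Surjective π := QuotientGroup.mk'_surjective W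
  have hker : ∀ x, π x = 1 ↔ x ∈ W := fun x => by
    change ((x : X ⧸ W) = 1) ↔ _
    exact QuotientGroup.eq_one_iff x
  have hπeq : ∀ x y, π x = π y → x⁻¹ * y ∈ W := by
    intro x y h
    rw [← hker, map_mul, map_inv, h]
    simp
  let T : Sylow 2 (X ⧸ W) := S.mapSurjective hπ
  have hTcoe : (T : Subgroup (X ⧸ W)) = (S : Subgroup X).map π := Sylow.coe_mapSurjective hπ S
  -- preimages of nontrivial subgroups of `T`
  have hpre : ∀ R : Subgroup (X ⧸ W), R ≤ T → R ≠ ⊥ → W < R.comap π ∧ R.comap π ≤ S := by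
    intro R hR hne
    constructor
    · refine lt_of_le_of_ne ?_ ?_
      · intro x hx
        rw [mem_comap, (hker x).2 hx]
        exact R.one_mem
      · intro h
        apply hne
        rw [eq_bot_iff]
        intro r hr
        obtain ⟨x, rfl⟩ := hπ r
        have hx : x ∈ R.comap π := hr
        rw [← h] at hx
        rw [mem_bot]
        exact (hker x).2 hx
    · intro x hx
      have h1 : π x ∈ (T : Subgroup (X ⧸ W)) := hR hx
      rw [hTcoe] at h1
      obtain ⟨s, hs, hsx⟩ := h1
      have h2 := hπeq s x hsx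
      have h3 := S.1.mul_mem hs (hWS h2)
      simpa using h3
  have hnorm : ∀ (R : Subgroup (X ⧸ W)) (g : X ⧸ W) (y : X), g ∈ normalizer (R : Set (X ⧸ W)) →
      π y = g → y ∈ normalizer ((R.comap π : Subgroup X) : Set X) := by
    intro R g y hg hy
    rw [mem_normalizer_iff]
    intro x
    rw [mem_comap, mem_comap, map_mul, map_mul, map_inv, hy]
    exact mem_normalizer_iff.mp hg (π x)
  have hFrob : ∀ R : Subgroup (X ⧸ W), R ≤ T → ∀ g ∈ normalizer (R : Set (X ⧸ W)),
      Nat.Coprime (orderOf g) 2 → g ∈ centralizer (R : Set (X ⧸ W)) := by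
    intro R hR g hg hcop
    by_cases hne : R = ⊥
    · subst hne
      rw [mem_centralizer_iff]
      intro h hh
      have : h = 1 := by simpa using hh
      subst this
      simp
    have hgodd : Odd (orderOf g) := Nat.Coprime.odd_of_right hcop
    obtain ⟨y, hy, hyodd⟩ := exists_odd_lift π hπ hgodd
    obtain ⟨h1, h2⟩ := hpre R hR hne
    have h3 := hmax _ h1 h2 y (hnorm R g y hg hy) hyodd
    rw [mem_centralizer_iff] at h3 ⊢
    intro r hr
    obtain ⟨x, rfl⟩ := hπ r
    have h4 := h3 x hr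
    rw [← hy]
    have := congrArg π h4
    simpa [map_mul] using this
  obtain ⟨N, hNn, hNc⟩ := (Cfsg.Agent.S0071.result T).mpr hFrob
  have hNodd : Odd (Nat.card N) := by
    have h1 : (T : Subgroup (X ⧸ W)).index = Nat.card N := hNc.index_eq_card
    have h2 := T.not_dvd_index
    rw [h1] at h2
    exact Nat.odd_iff.mpr (by omega)
  have hNidx : ∃ k, N.index = 2 ^ k := by
    have h1 : N.index = Nat.card T := hNc.symm.index_eq_card
    obtain ⟨k, hk⟩ := IsPGroup.iff_card.mp T.isPGroup'
    exact ⟨k, by rw [h1, hk]⟩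
  -- the preimage
  let K : Subgroup X := N.comap π
  have hKn : K.Normal := Subgroup.Normal.comap hNn π
  have hWK : W ≤ K := by
    intro x hx
    rw [mem_comap, (hker x).2 hx]
    exact N.one_mem
  have hcardK : Nat.card K = Nat.card N * Nat.card W :=
    Cfsg.Agent.Lib.Solvable.Hall.card_comap_mk W N
  haveI hW' : (W.subgroupOf K).Normal := inferInstance
  have hcardW' : Nat.card (W.subgroupOf K) = Nat.card W :=
    Nat.card_congr (Subgroup.subgroupOfEquivOfLe hWK).toEquiv
  have hidxW' : (W.subgroupOf K).index = Nat.card N := by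
    have h1 := Subgroup.card_mul_index (W.subgroupOf K)
    rw [hcardW', hcardK] at h1
    have hpos : 0 < Nat.card W := Nat.card_pos
    apply Nat.eq_of_mul_eq_mul_left hpos
    rw [h1]; ring
  have hWcard : ∃ k, Nat.card W = 2 ^ k := IsPGroup.iff_card.mp hW2
  have hcop : (Nat.card (W.subgroupOf K)).Coprime (W.subgroupOf K).index := by
    rw [hcardW', hidxW']
    obtain ⟨k, hk⟩ := hWcard
    rw [hk]
    exact Nat.Coprime.pow_left _ (Nat.coprime_two_left.mpr hNodd)
  obtain ⟨L', hL'⟩ := Subgroup.exists_right_complement'_of_coprime hcop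
  let L : Subgroup X := L'.map K.subtype
  have hcardL : Nat.card L = Nat.card N := by
    have h1 : Nat.card L = Nat.card L' := Subgroup.card_map_of_injective K.subtype_injective
    rw [h1, ← hidxW', hL'.symm.index_eq_card]
  have hLK : L ≤ K := Subgroup.map_subtype_le _
  have hsupK : W ⊔ L = K := by
    apply le_antisymm (sup_le hWK hLK)
    intro x hx
    have h1 : (⟨x, hx⟩ : K) ∈ W.subgroupOf K ⊔ L' := by
      rw [hL'.sup_eq_top]; trivial
    have h2 := Subgroup.mem_map_of_mem K.subtype h1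
    rw [Subgroup.map_sup, Subgroup.map_subgroupOf_eq_of_le hWK] at h2
    exact h2
  refine ⟨L, by rw [hcardL]; exact hNodd, by rw [hsupK]; exact hKn, ?_, ?_⟩
  · intro y hy
    rw [hsupK]
    change π y ∈ N
    obtain ⟨k, hk⟩ := hNidx
    have h1 := N.pow_index_mem (π y)
    rw [hk] at h1
    have h2 : Odd (orderOf (π y)) := Odd.of_dvd_nat hy (orderOf_map_dvd π y)
    have h3 : (2 ^ k).Coprime (orderOf (π y)) :=
      Nat.Coprime.pow_left _ (Nat.coprime_two_left.mpr h2)
    obtain ⟨m, hm⟩ := exists_pow_eq_self_of_coprime h3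
    rw [← hm]
    exact N.pow_mem h1 m
  · intro s hs s' hs' h1 h2 h3 hsq hcomm l hl
    have hTab : IsMulCommutative (T : Subgroup (X ⧸ W)) := by
      refine ⟨⟨?_⟩⟩
      rintro ⟨a, ha⟩ ⟨b, hb⟩
      rw [hTcoe] at ha hb
      obtain ⟨t, ht, rfl⟩ := ha
      obtain ⟨t', ht', rfl⟩ := hb
      apply Subtype.ext
      have h4 := (hker _).2 (hcomm t ht t' ht')
      rw [commutatorElement_def] at h4
      simp only [map_mul, map_inv] at h4
      change π t * π t' = π t' * π t
      have h5 : π t * π t' = (π t * π t' * (π t)⁻¹ * (π t')⁻¹) * (π t' * π t) := by group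
      rw [h5, h4, one_mul]
    have hTN : (T : Subgroup (X ⧸ W)) ≤ normalizer (N : Set (X ⧸ W)) := by
      intro x _
      exact mem_normalizer_of_conj_mem' fun n hn => hNn.conj_mem n hn x
    have hcopTN : (Nat.card (T : Subgroup (X ⧸ W))).Coprime (Nat.card N) := by
      obtain ⟨k, hk⟩ := IsPGroup.iff_card.mp T.isPGroup'
      rw [hk]
      exact Nat.Coprime.pow_left _ (Nat.coprime_two_left.mpr hNodd)
    have hgen := Cfsg.Agent.Lib.Coprime.Generation.le_iSup_cocyclic (T : Subgroup (X ⧸ W)) N hTab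
      hTN hcopTN
    let D : Subgroup (X ⧸ W) := (centralizer (W : Set X)).map π
    have hT2 : ∀ a ∈ (T : Subgroup (X ⧸ W)), a * a = 1 := by
      intro a ha
      rw [hTcoe] at ha
      obtain ⟨t, ht, rfl⟩ := ha
      rw [← map_mul]
      exact (hker _).2 (hsq t ht)
    have he : π s ∈ (T : Subgroup (X ⧸ W)) := by
      rw [hTcoe]; exact ⟨s, hs, rfl⟩
    have he' : π s' ∈ (T : Subgroup (X ⧸ W)) := by
      rw [hTcoe]; exact ⟨s', hs', rfl⟩
    have he1 : π s ≠ 1 := fun h => h1 ((hker s).1 h)
    have he2 : π s' ≠ 1 := fun h => h2 ((hker s').1 h)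
    have he3 : π s * π s' ≠ 1 := fun h => h3 ((hker _).1 (by rw [map_mul]; exact h))
    have hND : N ≤ D := by
      refine hgen.trans (iSup₂_le ?_)
      intro B hB y hy
      obtain ⟨hBT, a, haT, hsup⟩ := hB
      have hne : ∃ b ∈ B, b ≠ 1 := by
        by_contra hcon
        push Not at hcon
        have hBbot : B = ⊥ := by
          rw [eq_bot_iff]
          intro b hb
          rw [mem_bot]
          exact hcon b hb
        rw [hBbot, bot_sup_eq] at hsup
        have ha2 := hT2 a haT
        have hz : ∀ x ∈ (T : Subgroup (X ⧸ W)), x ≠ 1 → x = a := by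
          intro x hx hx1
          rw [← hsup] at hx
          obtain ⟨k, rfl⟩ := hx
          rcases Int.even_or_odd' k with ⟨m, rfl | rfl⟩
          · exfalso
            apply hx1
            simp only [zpow_mul, zpow_two, ha2, one_zpow]
          · simp only [zpow_add, zpow_mul, zpow_two, ha2, one_zpow, one_mul, zpow_one]
        have h6 := hz _ he he1
        have h7 := hz _ he' he2
        apply he3
        rw [h6, h7, ha2]
      obtain ⟨b, hb, hb1⟩ := hne
      have hyodd : Odd (orderOf y) := Odd.of_dvd_nat hNodd (Subgroup.orderOf_dvd_natCard N hy.1)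
      obtain ⟨y₀, hy₀, hy₀odd⟩ := exists_odd_lift π hπ hyodd
      have hRT : zpowers b ≤ (T : Subgroup (X ⧸ W)) := (zpowers_le).mpr (hBT hb)
      have hRne : zpowers b ≠ ⊥ := by
        rw [Ne, zpowers_eq_bot]
        exact hb1
      obtain ⟨h4, h5⟩ := hpre _ hRT hRne
      have hyb : b * y = y * b := mem_centralizer_iff.mp hy.2 b hb
      have hyN : y ∈ normalizer ((zpowers b : Subgroup (X ⧸ W)) : Set (X ⧸ W)) := by
        apply mem_normalizer_of_conj_mem'
        intro z hz
        obtain ⟨k, rfl⟩ := hz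
        have h6 : Commute y (b ^ k) := (Commute.symm hyb).zpow_right k
        rw [h6.eq]
        simpa using zpow_mem (mem_zpowers b) k
      have h6 := hmax _ h4 h5 y₀ (hnorm _ y y₀ hyN hy₀) hy₀odd
      have h7 : y₀ ∈ centralizer (W : Set X) := Subgroup.centralizer_le h4.le h6
      exact ⟨y₀, h7, hy₀⟩
    have hlK : l ∈ K := hLK hl
    obtain ⟨c, hc, hcl⟩ := hND hlK
    exact ⟨c, hc, hπeq c l hcl⟩

end Cfsg.Agent.Lib.NilMax
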