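import Mathlib
import Cfsg.Agent.Lib.NilMax.Hall
import Cfsg.Agent.Lib.Fusion.SatCrit6
import Cfsg.Agent.Lib.Coprime.Coset
import Cfsg.Agent.Lib.Coprime.Averaging

/-!
# Tools for the 2-nilpotence criterion
-/

set_option autoImplicit false
set_option linter.unusedVariables false
set_option linter.style.haveILetI false

namespace Cfsg.Agent.Lib.NilMax

open Subgroup Cfsg.Agent.Lib.Fusion.GroupSylow
open scoped commutatorElement

variable {G : Type*} [Group G] [Finite G]

/-- Frattini step: an odd element normalising `R` can be adjusted by `R` to normalise a Sylow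
2-subgroup `T` of `R`, keeping odd order. -/
theorem exists_odd_normalizer {T R : Subgroup G} (hT : IsSylowIn 2 T R) (hTR : T ≤ R) {x : G}
    (hx : x ∈ normalizer (R : Set G)) (hodd : Odd (orderOf x)) :
    ∃ x', Odd (orderOf x') ∧ x' ∈ normalizer (T : Set G) ∧ x' * x⁻¹ ∈ R := by
  have h1 : cj x T ≤ R := by
    rw [cj_le_iff]
    intro t ht
    exact (mem_normalizer_iff.mp hx t).mp (hTR ht)
  have h2 : IsPGroup 2 (cj x T) := isPGroup_cj x (hT.isPGroup hTR)
  obtain ⟨n, hn, hle⟩ := hT.exists_conj_le h1 h2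
  obtain ⟨k, hk1, hk2⟩ := exists_odd_pow hx hodd hn
  refine ⟨(n * x) ^ k, hk1, ?_, hk2⟩
  apply pow_mem
  apply mem_normalizer_of_conj_mem'
  intro y hy
  have h3 : n * (x * y * x⁻¹) * n⁻¹ ∈ T := (cj_le_iff.mp hle) _ (conj_mem_cj hy)
  simpa [mul_assoc] using h3

theorem mem_normalizer_sup {U Y : Subgroup G} {g : G} (hU : g ∈ normalizer (U : Set G))
    (hY : g ∈ normalizer (Y : Set G)) : g ∈ normalizer ((U ⊔ Y : Subgroup G) : Set G) := by
  apply mem_normalizer_of_conj_mem'
  have h : U ⊔ Y ≤ (U ⊔ Y).comap (MulAut.conj g).toMonoidHom := by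
    apply sup_le
    · intro u hu
      have h1 : g * u * g⁻¹ ∈ U := (mem_normalizer_iff.mp hU u).mp hu
      exact Subgroup.mem_sup_left h1
    · intro u hu
      have h1 : g * u * g⁻¹ ∈ Y := (mem_normalizer_iff.mp hY u).mp hu
      exact Subgroup.mem_sup_right h1
  exact fun y hy => h hy

/-- A subgroup containing a Sylow subgroup of `G` has it as a Sylow subgroup. -/
theorem isSylowIn_of_sylow_le (S : Sylow 2 G) {R : Subgroup G} (hSR : (S : Subgroup G) ≤ R) :
    IsSylowIn 2 (S : Subgroup G) R := by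
  rw [isSylowIn_iff_card hSR]
  refine ⟨S.isPGroup', fun T _ hT => ?_⟩
  obtain ⟨Q, hQ⟩ := hT.exists_le_sylow
  have h1 : Nat.card Q = Nat.card S := Nat.card_congr (Sylow.equiv Q S).toEquiv
  have h2 : Nat.card T ≤ Nat.card Q := Subgroup.card_le_of_le hQ
  exact h2.trans h1.le

/-- An odd element normalising a subgroup `R ≥ S` lies in `R C_G(S)`, when every odd element of
`N_G(S)` centralises `S`. -/
theorem exists_central_of_odd {S : Sylow 2 G}
    (hPS : ∀ g ∈ normalizer ((S : Subgroup G) : Set G), Odd (orderOf g) →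
      g ∈ centralizer ((S : Subgroup G) : Set G))
    {R : Subgroup G} (hSR : (S : Subgroup G) ≤ R) {y : G} (hy : y ∈ normalizer (R : Set G))
    (hodd : Odd (orderOf y)) : ∃ y' ∈ centralizer ((S : Subgroup G) : Set G), y' * y⁻¹ ∈ R := by
  obtain ⟨x', h1, h2, h3⟩ := exists_odd_normalizer (isSylowIn_of_sylow_le S hSR) hSR hy hodd
  exact ⟨x', hPS x' h2 h1, h3⟩

/-- The stabiliser of a section `B / Z`. -/
def secCent (B Z : Subgroup G) : Subgroup G where
  carrier := {h | h ∈ normalizer (B : Set G) ∧ ∀ b ∈ B, b⁻¹ * (h * b * h⁻¹) ∈ Z}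
  mul_mem' := by
    rintro h₁ h₂ ⟨h1, h2⟩ ⟨h3, h4⟩
    refine ⟨mul_mem h1 h3, fun b hb => ?_⟩
    have hb2 : h₂ * b * h₂⁻¹ ∈ B := (mem_normalizer_iff.mp h3 b).mp hb
    have := Z.mul_mem (h4 b hb) (h2 _ hb2)
    convert this using 1
    group
  one_mem' := by
    refine ⟨one_mem _, fun b _ => ?_⟩
    simp [Z.one_mem]
  inv_mem' := by
    rintro h ⟨h1, h2⟩
    refine ⟨inv_mem h1, fun b hb => ?_⟩
    have hb1 : h⁻¹ * b * h⁻¹⁻¹ ∈ B := (mem_normalizer_iff.mp (inv_mem h1) b).mp hb
    have h3 := Z.inv_mem (h2 _ hb1)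
    convert h3 using 1
    group

theorem mem_secCent {B Z : Subgroup G} {h : G} :
    h ∈ secCent B Z ↔ h ∈ normalizer (B : Set G) ∧ ∀ b ∈ B, b⁻¹ * (h * b * h⁻¹) ∈ Z := Iff.rfl

/-- If `S` acts trivially on an invariant section of `S`, so does every odd element normalising it. -/
theorem sec_trivial {S : Sylow 2 G}
    (hPS : ∀ g ∈ normalizer ((S : Subgroup G) : Set G), Odd (orderOf g) →
      g ∈ centralizer ((S : Subgroup G) : Set G))
    {B Z : Subgroup G} (hBS : B ≤ S)
    (hSN : ∀ s ∈ (S : Subgroup G), s ∈ normalizer (B : Set G) ∧ ∀ b ∈ B, b⁻¹ * (s * b * s⁻¹) ∈ Z)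
    {y : G} (hyB : y ∈ normalizer (B : Set G)) (hyZ : y ∈ normalizer (Z : Set G))
    (hodd : Odd (orderOf y)) : ∀ b ∈ B, b⁻¹ * (y * b * y⁻¹) ∈ Z := by
  have hSR : (S : Subgroup G) ≤ secCent B Z := fun s hs => hSN s hs
  have hyR : y ∈ normalizer ((secCent B Z : Subgroup G) : Set G) := by
    apply mem_normalizer_of_conj_mem'
    rintro h ⟨h1, h2⟩
    refine ⟨mul_mem (mul_mem hyB h1) (inv_mem hyB), fun b hb => ?_⟩
    have hb1 : y⁻¹ * b * y⁻¹⁻¹ ∈ B := (mem_normalizer_iff.mp (inv_mem hyB) b).mp hb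
    have h3 := h2 _ hb1
    have h4 := (mem_normalizer_iff.mp hyZ _).mp h3
    convert h4 using 1
    group
  obtain ⟨y', hy'1, hy'2⟩ := exists_central_of_odd hPS hSR hyR hodd
  have hy'R : y' ∈ secCent B Z := by
    refine ⟨?_, fun b hb => ?_⟩
    · apply mem_normalizer_of_conj_mem'
      intro b hb
      have : y' * b = b * y' := (mem_centralizer_iff.mp hy'1 b (hBS hb)).symm
      rw [this]
      simpa using hb
    · have : y' * b = b * y' := (mem_centralizer_iff.mp hy'1 b (hBS hb)).symm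
      rw [this]
      simp [Z.one_mem]
  have hyR' : y ∈ secCent B Z := by
    have := (secCent B Z).mul_mem ((secCent B Z).inv_mem hy'2) hy'R
    simpa using this
  exact hyR'.2

/-- An odd element normalising the solvable subgroup `W` with `[W, y] ≤ Z'` and centralising `Z'`
centralises `W`. -/
theorem mem_centralizer_of_comm {W Z' : Subgroup G} {y : G} (hy : y ∈ normalizer (W : Set G))
    (hodd : Odd (orderOf y)) (hW2 : IsPGroup 2 W)
    (h1 : ∀ w ∈ W, ∀ k : ℤ, ⁅w, y ^ k⁆ ∈ Z') (h2 : ∀ z ∈ Z', y * z = z * y) :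
    y ∈ centralizer (W : Set G) := by
  have hA : zpowers y ≤ normalizer (W : Set G) := (zpowers_le).mpr hy
  have hcop : (Nat.card (zpowers y)).Coprime (Nat.card W) := by
    rw [Nat.card_zpowers]
    obtain ⟨k, hk⟩ := IsPGroup.iff_card.mp hW2
    rw [hk]
    exact Nat.Coprime.pow_right _ (Nat.coprime_two_right.mpr hodd)
  have hsolv : Group.IsSolvable (zpowers y) ∨ Group.IsSolvable W := by
    left
    infer_instance
  have h3 := Cfsg.Agent.Lib.Coprime.Coset.commutator_commutator_eq hA hcop hsolv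
  have h4 : ⁅W, zpowers y⁆ ≤ Z' := by
    rw [Subgroup.commutator_le]
    rintro w hw _ ⟨k, rfl⟩
    exact h1 w hw k
  have hcomm : ∀ z ∈ Z', ∀ k : ℤ, y ^ k * z = z * y ^ k := by
    intro z hz k
    have : Commute y z := h2 z hz
    exact (this.zpow_left k).eq
  have h5 : ⁅⁅W, zpowers y⁆, zpowers y⁆ = ⊥ := by
    rw [eq_bot_iff, Subgroup.commutator_le]
    rintro z hz _ ⟨k, rfl⟩
    have h6 := hcomm z (h4 hz) k
    rw [mem_bot, commutatorElement_eq_one_iff_mul_comm]
    exact h6.symm
  rw [h5] at h3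
  rw [mem_centralizer_iff]
  intro w hw
  have h6 : ⁅w, y⁆ ∈ ⁅W, zpowers y⁆ := Subgroup.commutator_mem_commutator hw (mem_zpowers y)
  rw [← h3, mem_bot, commutatorElement_eq_one_iff_mul_comm] at h6
  exact h6

/-- An odd automorphism (by conjugation) of an abelian 2-group trivial on the involutions is
trivial. -/
theorem fix_of_fix_involutions {V : Subgroup G} (hV2 : IsPGroup 2 V)
    (hVab : ∀ a ∈ V, ∀ b ∈ V, a * b = b * a) {y : G} (hy : y ∈ normalizer (V : Set G))
    (hodd : Odd (orderOf y))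
    (hfix : ∀ v ∈ V, v * v = 1 → y * v * y⁻¹ = v) : ∀ v ∈ V, y * v * y⁻¹ = v := by
  have key : ∀ n : ℕ, ∀ v ∈ V, v ^ (2 ^ n) = 1 → y * v * y⁻¹ = v := by
    intro n
    induction n with
    | zero =>
      intro v _ h
      have : v = 1 := by simpa using h
      subst this
      simp
    | succ n ih =>
      intro v hv h
      have h1 : (v * v) ^ (2 ^ n) = 1 := by
        rw [← pow_two, ← pow_mul, ← pow_succ']
        exact h
      have h2 := ih (v * v) (V.mul_mem hv hv) h1
      have hyv : y * v * y⁻¹ ∈ V := (mem_normalizer_iff.mp hy v).mp hv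
      set w : G := v⁻¹ * (y * v * y⁻¹) with hw
      have hwV : w ∈ V := V.mul_mem (V.inv_mem hv) hyv
      have h3 : (y * v * y⁻¹) * (y * v * y⁻¹) = v * v := by
        rw [← h2]; group
      have hww : w * w = 1 := by
        have e1 : w * w = v⁻¹ * v⁻¹ * ((y * v * y⁻¹) * (y * v * y⁻¹)) := by
          rw [hw]
          have hc := hVab _ hyv _ (V.inv_mem hv)
          calc v⁻¹ * (y * v * y⁻¹) * (v⁻¹ * (y * v * y⁻¹))
              = v⁻¹ * ((y * v * y⁻¹) * v⁻¹) * (y * v * y⁻¹) := by group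
            _ = v⁻¹ * (v⁻¹ * (y * v * y⁻¹)) * (y * v * y⁻¹) := by rw [hc]
            _ = _ := by group
        rw [e1, h3]
        group
      have hyw := hfix w hwV hww
      have hpow : ∀ k : ℕ, y ^ k * v * (y ^ k)⁻¹ = v * w ^ k := by
        intro k
        induction k with
        | zero => simp
        | succ k ihk =>
          have e2 : y * v = v * w * y := by
            rw [hw]; group
          have e3 : y * w = w * y := by
            have : y * w * y⁻¹ * y = w * y := by rw [hyw]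
            simpa using this
          have e4 : ∀ j : ℕ, y * w ^ j = w ^ j * y := fun j => ((show Commute y w from e3).pow_right j).eq
          calc y ^ (k + 1) * v * (y ^ (k + 1))⁻¹
              = y * (y ^ k * v * (y ^ k)⁻¹) * y⁻¹ := by rw [pow_succ']; group
            _ = y * (v * w ^ k) * y⁻¹ := by rw [ihk]
            _ = (y * v) * w ^ k * y⁻¹ := by group
            _ = (v * w * y) * w ^ k * y⁻¹ := by rw [e2]
            _ = v * w * (y * w ^ k) * y⁻¹ := by group
            _ = v * w * (w ^ k * y) * y⁻¹ := by rw [e4]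
            _ = v * w ^ (k + 1) := by rw [pow_succ']; group
      have h4 := hpow (orderOf y)
      rw [pow_orderOf_eq_one] at h4
      have h5 : w ^ orderOf y = 1 := by
        have : v = v * w ^ orderOf y := by simpa using h4
        simpa using this
      obtain ⟨m, hm⟩ := hodd
      have h6 : w = 1 := by
        rw [hm, pow_succ, pow_mul, pow_two, hww, one_pow, one_mul] at h5
        exact h5
      have h7 : v⁻¹ * (y * v * y⁻¹) = 1 := h6
      have h8 := inv_mul_eq_one.mp h7
      exact h8.symm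
  intro v hv
  obtain ⟨k, hk⟩ := (IsPGroup.iff_orderOf.mp hV2) ⟨v, hv⟩
  apply key k v hv
  have h1 : (⟨v, hv⟩ : V) ^ (2 ^ k) = 1 := by
    rw [← hk]; exact pow_orderOf_eq_one _
  have h2 := congrArg Subtype.val h1
  simpa using h2

end Cfsg.Agent.Lib.NilMax
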