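import Mathlib
import Cfsg.Agent.Lib.NilMax.Tools

/-!
# The extremal subgroup in the 2-nilpotence criterion
-/

set_option autoImplicit false
set_option linter.unusedVariables false
set_option linter.unusedSectionVars false
set_option linter.style.haveILetI false

namespace Cfsg.Agent.Lib.NilMax

open Subgroup Cfsg.Agent.Lib.Fusion.GroupSylow
open scoped commutatorElement

variable {G : Type*} [Group G] [Finite G]

/-- `U ≤ S` is normalised, but not centralised, by an element of odd order. -/
def Bad (S U : Subgroup G) : Prop :=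
  U ≤ S ∧ ∃ g ∈ normalizer (U : Set G), Odd (orderOf g) ∧ g ∉ centralizer (U : Set G)

theorem orderOf_conj_eq (g x : G) : orderOf (g * x * g⁻¹) = orderOf x :=
  orderOf_injective (MulAut.conj g).toMonoidHom (MulAut.conj g).injective x

theorem bad_cj {S U : Subgroup G} (g : G) (h : cj g U ≤ S)
    (hb : ∃ x ∈ normalizer (U : Set G), Odd (orderOf x) ∧ x ∉ centralizer (U : Set G)) :
    Bad S (cj g U) := by
  obtain ⟨x, hx1, hx2, hx3⟩ := hb
  refine ⟨h, g * x * g⁻¹, ?_, ?_, ?_⟩
  · rw [normalizer_cj]
    exact conj_mem_cj hx1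
  · rwa [orderOf_conj_eq]
  · rw [centralizer_cj, mem_cj]
    intro h1
    apply hx3
    simpa [mul_assoc] using h1

/-- `W` is extremal among bad subgroups of `S`. -/
structure Ext (S : Sylow 2 G) (W : Subgroup G) : Prop where
  hWS : W ≤ S
  hx : ∃ x ∈ normalizer (W : Set G), Odd (orderOf x) ∧ x ∉ centralizer (W : Set G)
  hle : ∀ Y : Subgroup G, Y ≤ S → ∀ x ∈ normalizer (W : Set G), x ∈ normalizer (Y : Set G) →
    Odd (orderOf x) → x ∉ centralizer (W : Set G) → Y ≤ W
  hnon : ∀ P : Subgroup G, W < P → P ≤ S → ∀ y ∈ normalizer (P : Set G), Odd (orderOf y) →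
    y ∈ centralizer (P : Set G)
  hCW : ∀ s ∈ (S : Subgroup G), s ∈ centralizer (W : Set G) → s ∈ W

theorem exists_ext (S : Sylow 2 G) (hne : ∃ U, Bad (S : Subgroup G) U) :
    ∃ W, Ext S W := by
  classical
  have hfin : Finite {U : Subgroup G // Bad (S : Subgroup G) U} := inferInstance
  haveI : Nonempty {U : Subgroup G // Bad (S : Subgroup G) U} := by
    obtain ⟨U, hU⟩ := hne
    exact ⟨⟨U, hU⟩⟩
  let f : {U : Subgroup G // Bad (S : Subgroup G) U} → ℕ := fun U =>
    Nat.card U.1 * (Nat.card G + 1) + Nat.card ((S : Subgroup G) ⊓ centralizer (U.1 : Set G) : Subgroup G)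
  obtain ⟨⟨W, hW⟩, hmax⟩ := Finite.exists_max f
  have hbd : ∀ K : Subgroup G, Nat.card K ≤ Nat.card G := fun K => Subgroup.card_le_card_group K
  have hcardmax : ∀ U, Bad (S : Subgroup G) U → Nat.card U ≤ Nat.card W := by
    intro U hU
    by_contra hlt
    push Not at hlt
    have h1 := hmax ⟨U, hU⟩
    have h2 : Nat.card W * (Nat.card G + 1) + (Nat.card G + 1) ≤ Nat.card U * (Nat.card G + 1) := by
      have := Nat.mul_le_mul_right (Nat.card G + 1) (Nat.succ_le_of_lt hlt)
      calc _ = (Nat.card W + 1) * (Nat.card G + 1) := by ring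
        _ ≤ _ := this
    have h3 := hbd ((S : Subgroup G) ⊓ centralizer (W : Set G))
    simp only [f] at h1
    omega
  have hle : ∀ Y : Subgroup G, Y ≤ S → ∀ x ∈ normalizer (W : Set G), x ∈ normalizer (Y : Set G) →
      Odd (orderOf x) → x ∉ centralizer (W : Set G) → Y ≤ W := by
    intro Y hY x hxW hxY hodd hnot
    have hb : Bad (S : Subgroup G) (W ⊔ Y) := by
      refine ⟨sup_le hW.1 hY, x, mem_normalizer_sup hxW hxY, hodd, fun h => hnot ?_⟩
      exact Subgroup.centralizer_le (by
        intro w hw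
        exact Subgroup.mem_sup_left hw) h
    have h1 := hcardmax _ hb
    have h2 : W ≤ W ⊔ Y := le_sup_left
    have h3 : W = W ⊔ Y := Subgroup.eq_of_le_of_card_ge h2 h1
    rw [h3]
    exact le_sup_right
  have hsyl : IsSylowIn 2 ((S : Subgroup G) ⊓ centralizer (W : Set G)) (centralizer (W : Set G)) := by
    rw [isSylowIn_iff_card inf_le_right]
    refine ⟨S.isPGroup'.to_le inf_le_left, fun T hT hT2 => ?_⟩
    have hWp : IsPGroup 2 W := S.isPGroup'.to_le hW.1
    have h1 : IsPGroup 2 (W ⊔ T : Subgroup G) := by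
      apply IsPGroup.to_sup_of_normal_left' hWp hT2
      intro t ht
      rw [mem_normalizer_iff]
      intro w
      constructor
      · intro hw
        have := (mem_centralizer_iff.mp (hT ht) w hw)
        have h4 : t * w * t⁻¹ = w := by rw [← this]; group
        rwa [h4]
      · intro hw
        have := (mem_centralizer_iff.mp (hT ht) _ hw)
        have h4 : t * w * t⁻¹ * t = t * (t * w * t⁻¹) := this
        have h5 : w = t * w * t⁻¹ := by
          have h6 : t * w = t * (t * w * t⁻¹) := by simpa using h4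
          exact mul_left_cancel h6
        rwa [h5]
    obtain ⟨Q, hQ⟩ := h1.exists_le_sylow
    obtain ⟨g, hg⟩ := MulAction.exists_smul_eq G Q S
    have hcjQ : cj g (Q : Subgroup G) = S := by
      rw [← hg]
      rfl
    have hcj : cj g (W ⊔ T) ≤ S := by
      rw [← hcjQ]
      exact cj_mono hQ
    have hWg : cj g W ≤ S := (cj_mono le_sup_left).trans hcj
    have hTg : cj g T ≤ S := (cj_mono le_sup_right).trans hcj
    have hbad : Bad (S : Subgroup G) (cj g W) := bad_cj g hWg hW.2
    have h2 := hmax ⟨_, hbad⟩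
    simp only [f] at h2
    rw [card_cj] at h2
    have h3 : Nat.card ((S : Subgroup G) ⊓ centralizer ((cj g W : Subgroup G) : Set G) : Subgroup G)
        ≤ Nat.card ((S : Subgroup G) ⊓ centralizer (W : Set G) : Subgroup G) := by omega
    have h4 : cj g T ≤ (S : Subgroup G) ⊓ centralizer ((cj g W : Subgroup G) : Set G) := by
      refine le_inf hTg ?_
      rw [centralizer_cj]
      exact cj_mono hT
    have h5 := Subgroup.card_le_of_le h4
    rw [card_cj] at h5
    exact h5.trans h3
  refine ⟨W, hW.1, hW.2, hle, ?_, ?_⟩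
  · intro P hP hPS y hy hodd
    by_contra hcon
    have hb : Bad (S : Subgroup G) P := ⟨hPS, y, hy, hodd, hcon⟩
    have h1 := hcardmax _ hb
    exact hP.ne (Subgroup.eq_of_le_of_card_ge hP.le h1)
  · -- `C_S(W) ≤ W`
    obtain ⟨x, hx1, hx2, hx3⟩ := hW.2
    have hxR : x ∈ normalizer ((centralizer (W : Set G) : Subgroup G) : Set G) := by
      apply mem_normalizer_of_conj_mem'
      intro c hc
      rw [mem_centralizer_iff] at hc ⊢
      intro w hw
      have h1 : x⁻¹ * w * x⁻¹⁻¹ ∈ W := (mem_normalizer_iff.mp (inv_mem hx1) w).mp hw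
      have h2 := hc _ h1
      calc w * (x * c * x⁻¹) = x * ((x⁻¹ * w * x⁻¹⁻¹) * c) * x⁻¹ := by group
        _ = x * (c * (x⁻¹ * w * x⁻¹⁻¹)) * x⁻¹ := by rw [h2]
        _ = x * c * x⁻¹ * w := by group
    obtain ⟨x', h1, h2, h3⟩ := exists_odd_normalizer hsyl inf_le_right hxR hx2
    have hxNW : x' ∈ normalizer (W : Set G) := by
      have h4 : x' * x⁻¹ ∈ normalizer (W : Set G) := by
        apply mem_normalizer_of_conj_mem'
        intro w hw
        have := mem_centralizer_iff.mp h3 w hw
        have h5 : x' * x⁻¹ * w * (x' * x⁻¹)⁻¹ = w := by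
          rw [← this]; group
        rwa [h5]
      have := mul_mem h4 hx1
      simpa using this
    have hxC : x' ∉ centralizer (W : Set G) := by
      intro hc
      apply hx3
      have := mul_mem (inv_mem h3) hc
      simpa using this
    have h4 := hle _ inf_le_left x' hxNW h2 h1 hxC
    intro s hs hsC
    exact h4 ⟨hs, hsC⟩

end Cfsg.Agent.Lib.NilMax
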