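import Mathlib

/-!
# Blocks in a 2-group of class at most two, permuted by an automorphism of odd order

A purely group-theoretic lemma: if `W` has index at most two in a 2-group `S` of class at most
two, `V ≤ Z(W)` is normal in `S` with `C_S(V) ≤ W`, and `V` avoids the commutators and squares of
`W`, then an automorphism of odd order fixing `S` cannot move `W` off `V`.
-/

set_option autoImplicit false

namespace Cfsg.Agent.Lib.NilMax

variable {G : Type*} [Group G]

open scoped commutatorElement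

/-- The elementary part of the block condition on `(S, W, V)`. -/
structure Block0 (S W V : Subgroup G) : Prop where
  hW : W ≤ S
  hV : V ≤ W
  hidx : ∀ s ∈ S, ∀ s' ∈ S, s ∉ W → s' ∉ W → s * s' ∈ W
  hcent : ∀ v ∈ V, ∀ w ∈ W, v * w = w * v
  hnorm : ∀ v ∈ V, ∀ s ∈ S, s * v * s⁻¹ ∈ V
  hcS : ∀ s ∈ S, (∀ v ∈ V, v * s = s * v) → s ∈ W

theorem central_mem {S W V : Subgroup G} (B : Block0 S W V) {x : G} (hx : x ∈ S)
    (hc : ∀ s ∈ S, x * s = s * x) : x ∈ W :=
  B.hcS x hx fun v hv => (hc v (B.hW (B.hV hv))).symm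

theorem symm_mem {S : Subgroup G} (τ : G ≃* G) (hτ : ∀ x, x ∈ S ↔ τ x ∈ S) {x : G} (hx : x ∈ S) :
    τ.symm x ∈ S := by
  rw [hτ]; simpa using hx

section Adj

variable {S W V : Subgroup G} (B : Block0 S W V) (τ : G ≃* G) (hτ : ∀ x, x ∈ S ↔ τ x ∈ S)

include B hτ

/-- The non-commuting partner of an element of `V` outside `τ W`. -/
theorem exists_partner {v₁ : G} (hv₁ : v₁ ∈ V) (hnot : τ.symm v₁ ∉ W) :
    ∃ u₀ ∈ V, τ u₀ * v₁ ≠ v₁ * τ u₀ := by
  by_contra hcon
  push Not at hcon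
  apply hnot
  apply B.hcS _ (symm_mem τ hτ (B.hW (B.hV hv₁)))
  intro v hv
  apply τ.injective
  simpa using hcon v hv

/-- Facts following from `v₁ ∉ τ W`: elements of `V` are central in `S` iff they are in `τ W`. -/
theorem central_of_symm_mem {u₀ : G} (hu₀ : u₀ ∈ V) {v₁ : G} (hv₁ : v₁ ∈ V)
    (hne : τ u₀ * v₁ ≠ v₁ * τ u₀) {x : G} (hx : x ∈ V) (hxW : τ.symm x ∈ W) :
    ∀ s ∈ S, x * s = s * x := by
  have hu1 : τ u₀ ∈ S := (hτ _).1 (B.hW (B.hV hu₀))
  have hu2 : τ u₀ ∉ W := fun h => hne (B.hcent v₁ hv₁ _ h).symm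
  have h1 : x * τ u₀ = τ u₀ * x := by
    have := B.hcent u₀ hu₀ _ hxW
    have h2 := congrArg τ this
    simpa using h2.symm
  intro s hs
  by_cases hsW : s ∈ W
  · exact B.hcent x hx s hsW
  · have h3 := B.hidx _ hu1 s hs hu2 hsW
    have h4 := B.hcent x hx _ h3
    have h5 : τ u₀ * (x * s) = τ u₀ * (s * x) := by
      calc τ u₀ * (x * s) = (τ u₀ * x) * s := by group
        _ = x * τ u₀ * s := by rw [h1]
        _ = x * (τ u₀ * s) := by group
        _ = τ u₀ * s * x := h4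
        _ = τ u₀ * (s * x) := by group
    exact mul_left_cancel h5

theorem symm_mem_of_central {x : G} (hx : x ∈ S) (hc : ∀ s ∈ S, x * s = s * x) : τ.symm x ∈ W := by
  apply B.hcS _ (symm_mem τ hτ hx)
  intro v hv
  have h1 := hc (τ v) ((hτ v).1 (B.hW (B.hV hv)))
  apply τ.injective
  simpa using h1.symm

/-- Two non-central elements of `V` have a central product. -/
theorem mul_central {u₀ : G} (hu₀ : u₀ ∈ V) {v₁ : G} (hv₁ : v₁ ∈ V)
    (hne : τ u₀ * v₁ ≠ v₁ * τ u₀) {a b : G} (ha : a ∈ V) (hb : b ∈ V)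
    (hac : ¬ ∀ s ∈ S, a * s = s * a) (hbc : ¬ ∀ s ∈ S, b * s = s * b) :
    ∀ s ∈ S, (a * b) * s = s * (a * b) := by
  have ha' : τ.symm a ∉ W := fun h => hac (central_of_symm_mem B τ hτ hu₀ hv₁ hne ha h)
  have hb' : τ.symm b ∉ W := fun h => hbc (central_of_symm_mem B τ hτ hu₀ hv₁ hne hb h)
  have h1 := B.hidx _ (symm_mem τ hτ (B.hW (B.hV ha))) _ (symm_mem τ hτ (B.hW (B.hV hb))) ha' hb'
  rw [← map_mul] at h1
  exact central_of_symm_mem B τ hτ hu₀ hv₁ hne (V.mul_mem ha hb) h1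

/-- Squares of elements of `V` are central in `S` when `V ⊄ τ W`. -/
theorem sq_central {v₁ : G} (hv₁ : v₁ ∈ V) (hnot : τ.symm v₁ ∉ W) {a : G} (ha : a ∈ V) :
    ∀ s ∈ S, (a * a) * s = s * (a * a) := by
  obtain ⟨u₀, hu₀, hne⟩ := exists_partner B τ hτ hv₁ hnot
  by_cases hac : ∀ s ∈ S, a * s = s * a
  · intro s hs
    calc (a * a) * s = a * (a * s) := by group
      _ = a * (s * a) := by rw [hac s hs]
      _ = (a * s) * a := by group
      _ = (s * a) * a := by rw [hac s hs]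
      _ = s * (a * a) := by group
  · exact mul_central B τ hτ hu₀ hv₁ hne ha ha hac hac

end Adj

/-- The main lemma: the block cannot be moved off itself by an automorphism of odd order. -/
theorem false_of_moved {S W V : Subgroup G} (B : Block0 S W V)
    (hcl : ∀ x ∈ S, ∀ y ∈ S, ∀ s ∈ S, ⁅x, y⁆ * s = s * ⁅x, y⁆)
    (hcomm : ∀ w ∈ W, ∀ w' ∈ W, ⁅w, w'⁆ ∈ V → ⁅w, w'⁆ = 1)
    (hsq : ∀ r ∈ W, r * r ∈ V → r * r = 1)
    (hell : ∀ v ∈ V, v * v = 1)
    (τ : G ≃* G) (hτ : ∀ x, x ∈ S ↔ τ x ∈ S) {n : ℕ} (hn : Odd n) (hτn : ∀ x, (τ ^ n : MulAut G) x = x)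
    {v₁ : G} (hv₁ : v₁ ∈ V) (hnot : τ.symm v₁ ∉ W) : False := by
  obtain ⟨u₀, hu₀, hne⟩ := exists_partner B τ hτ hv₁ hnot
  have hVS : V ≤ S := B.hV.trans B.hW
  have hpow : ∀ i x, x ∈ S ↔ (τ ^ i : MulAut G) x ∈ S := by
    intro i x
    induction i generalizing x with
    | zero => simp
    | succ i ih =>
      rw [pow_succ, MulAut.mul_apply, ← ih]
      exact hτ x
  set u : G := τ u₀ with hu
  have hu1 : u ∈ S := (hτ _).1 (hVS hu₀)
  have hv1S : v₁ ∈ S := hVS hv₁
  set z : G := ⁅v₁, u⁆ with hz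
  have hz1 : z ≠ 1 := by
    intro h
    apply hne
    have := commutatorElement_eq_one_iff_mul_comm.mp h
    exact this.symm
  have hzV : z ∈ V := by
    have : z = v₁ * (u * v₁⁻¹ * u⁻¹) := by
      rw [hz, commutatorElement_def]; group
    rw [this]
    exact V.mul_mem hv₁ (B.hnorm _ (V.inv_mem hv₁) _ hu1)
  have hzc : ∀ s ∈ S, z * s = s * z := hcl _ hv1S _ hu1
  -- `v₁` and `u₀` are not central in `S`
  have hv₁nc : ¬ ∀ s ∈ S, v₁ * s = s * v₁ := fun h => hne (h u hu1).symm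
  have hu₀nc : ¬ ∀ s ∈ S, u₀ * s = s * u₀ := by
    intro h
    apply hne
    have h1 := h (τ.symm v₁) (symm_mem τ hτ hv1S)
    have h2 := congrArg τ h1
    simpa using h2
  have hu2 : u ∉ W := fun h => hne (B.hcent v₁ hv₁ _ h).symm
  -- the commutator of a non-central element of `V` with an element outside `W` is `z`
  have hfive : ∀ a ∈ V, (¬ ∀ s ∈ S, a * s = s * a) → ∀ s ∈ S, s ∉ W → ⁅a, s⁆ = z := by
    intro a ha hac s hs hsW
    have hv₁i : v₁⁻¹ ∈ V := V.inv_mem hv₁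
    have hv₁inc : ¬ ∀ s ∈ S, v₁⁻¹ * s = s * v₁⁻¹ := by
      intro h
      apply hv₁nc
      intro s hs
      have h1 := h s hs
      have h2 : v₁ * (v₁⁻¹ * s) * v₁ = v₁ * (s * v₁⁻¹) * v₁ := by rw [h1]
      calc v₁ * s = v₁ * s * v₁⁻¹ * v₁ := by group
        _ = v₁ * (s * v₁⁻¹) * v₁ := by group
        _ = v₁ * (v₁⁻¹ * s) * v₁ := h2.symm
        _ = s * v₁ := by group
    have hc : ∀ s ∈ S, (v₁⁻¹ * a) * s = s * (v₁⁻¹ * a) :=
      mul_central B τ hτ hu₀ hv₁ hne hv₁i ha hv₁inc hac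
    set c : G := v₁⁻¹ * a with hcdef
    have hac' : a = v₁ * c := by rw [hcdef]; group
    have hui : u⁻¹ ∈ S := S.inv_mem hu1
    have hui2 : u⁻¹ ∉ W := fun h => hu2 (by simpa using W.inv_mem h)
    have hwW : u⁻¹ * s ∈ W := B.hidx _ hui _ hs hui2 hsW
    set w : G := u⁻¹ * s with hwdef
    have hsw : s = u * w := by rw [hwdef]; group
    have hcS : c ∈ S := S.mul_mem (S.inv_mem hv1S) (hVS ha)
    have hwS : w ∈ S := B.hW hwW
    have h1 : c * u = u * c := hc u hu1
    have h2 : c * w = w * c := hc w hwS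
    have h3 : v₁ * w = w * v₁ := B.hcent v₁ hv₁ w hwW
    have h4 : c * v₁ = v₁ * c := hc v₁ hv1S
    rw [hac', hsw, hz, commutatorElement_def, commutatorElement_def]
    have h5 : v₁⁻¹ * w = w * v₁⁻¹ := by
      have : v₁⁻¹ * (v₁ * w) * v₁⁻¹ = v₁⁻¹ * (w * v₁) * v₁⁻¹ := by rw [h3]
      calc v₁⁻¹ * w = v₁⁻¹ * (w * v₁) * v₁⁻¹ := by group
        _ = v₁⁻¹ * (v₁ * w) * v₁⁻¹ := this.symm
        _ = w * v₁⁻¹ := by group
    calc v₁ * c * (u * w) * (v₁ * c)⁻¹ * (u * w)⁻¹
        = v₁ * (c * u) * w * c⁻¹ * v₁⁻¹ * w⁻¹ * u⁻¹ := by group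
      _ = v₁ * u * (c * w) * c⁻¹ * v₁⁻¹ * w⁻¹ * u⁻¹ := by rw [h1]; group
      _ = v₁ * u * w * v₁⁻¹ * w⁻¹ * u⁻¹ := by rw [h2]; group
      _ = v₁ * u * (w * v₁⁻¹) * w⁻¹ * u⁻¹ := by group
      _ = v₁ * u * v₁⁻¹ * u⁻¹ := by rw [← h5]; group
  -- `τ z = z`
  have hτz : τ z = z := by
    have h1 := hfive u₀ hu₀ hu₀nc (τ.symm v₁) (symm_mem τ hτ hv1S) hnot
    have h2 := congrArg τ h1
    have h3 : τ ⁅u₀, τ.symm v₁⁆ = ⁅u, v₁⁆ := by
      rw [commutatorElement_def, commutatorElement_def]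
      simp [map_mul, map_inv, hu]
    rw [h3] at h2
    have h4 : ⁅u, v₁⁆ = z⁻¹ := by
      rw [hz, commutatorElement_inv]
    have h5 : z * z = 1 := by
      have hv2 := hell v₁ hv₁
      have h6 : v₁ * u * v₁⁻¹ = z * u := by
        rw [hz, commutatorElement_def]; group
      have h7 : v₁ * (z * u) * v₁⁻¹ = z * (z * u) := by
        have : v₁ * z = z * v₁ := (hzc v₁ hv1S).symm
        calc v₁ * (z * u) * v₁⁻¹ = (v₁ * z) * u * v₁⁻¹ := by group
          _ = z * (v₁ * u * v₁⁻¹) := by rw [this]; group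
          _ = z * (z * u) := by rw [h6]
      have h8 : v₁ * (v₁ * u * v₁⁻¹) * v₁⁻¹ = u := by
        have hvi : v₁⁻¹ = v₁ := by
          rw [inv_eq_iff_mul_eq_one]; exact hv2
        calc v₁ * (v₁ * u * v₁⁻¹) * v₁⁻¹ = (v₁ * v₁) * u * (v₁⁻¹ * v₁⁻¹) := by group
          _ = u := by rw [hv2, hvi, hv2]; group
      rw [h6, h7] at h8
      have h9 : z * z * u = 1 * u := by
        calc z * z * u = z * (z * u) := by group
          _ = u := h8
          _ = 1 * u := by group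
      exact mul_right_cancel h9
    have h10 : z⁻¹ = z := by rw [inv_eq_iff_mul_eq_one]; exact h5
    rw [h4, h10] at h2
    exact h2.symm
  have hτiz : ∀ i, (τ ^ i : MulAut G) z = z := by
    intro i
    induction i with
    | zero => simp
    | succ i ih =>
      rw [pow_succ, MulAut.mul_apply]
      change (τ ^ i : MulAut G) (τ z) = z
      rw [hτz, ih]
  -- the chain
  set y : ℕ → G := fun i => (τ ^ i : MulAut G) v₁ with hy
  set y' : ℕ → G := fun i => (τ ^ i : MulAut G) u₀ with hy'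
  have hyS : ∀ i, y i ∈ S := fun i => (hpow i _).1 hv1S
  have hy'S : ∀ i, y' i ∈ S := fun i => (hpow i _).1 (hVS hu₀)
  have hyy : ∀ i, y i * y i = 1 := by
    intro i
    simp only [hy, ← map_mul, hell v₁ hv₁, map_one]
  have hyy' : ∀ i, y' i * y' i = 1 := by
    intro i
    simp only [hy', ← map_mul, hell u₀ hu₀, map_one]
  have hprod : ∀ i, y i * y' i ∈ W := by
    intro i
    apply central_mem B (S.mul_mem (hyS i) (hy'S i))
    intro s hs
    have h1 := mul_central B τ hτ hu₀ hv₁ hne hv₁ hu₀ hv₁nc hu₀nc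
    have hs' : ((τ ^ i : MulAut G)⁻¹) s ∈ S := by
      rw [hpow i]; simpa using hs
    have h2 := h1 _ hs'
    have h3 := congrArg (τ ^ i : MulAut G) h2
    simpa [hy, hy', map_mul] using h3
  have hcommi : ∀ i, ⁅y i, y' (i + 1)⁆ = z := by
    intro i
    have h1 : y' (i + 1) = (τ ^ i : MulAut G) u := by
      simp only [hy', pow_succ, MulAut.mul_apply, hu]
    rw [h1]
    simp only [hy]
    rw [← map_commutatorElement, ← hz, hτiz]
  have hkey : ∀ i, y i ∈ W ↔ y' (i + 1) ∉ W := by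
    intro i
    constructor
    · intro h1 h2
      apply hz1
      have := hcomm _ h1 _ h2 (by rw [hcommi]; exact hzV)
      rwa [hcommi] at this
    · intro h2
      by_contra h1
      apply hz1
      have h3 := B.hidx _ (hyS i) _ (hy'S (i + 1)) h1 h2
      have h4 : (y i * y' (i + 1)) * (y i * y' (i + 1)) = z := by
        rw [← hcommi i, commutatorElement_def]
        have e1 : (y i)⁻¹ = y i := by rw [inv_eq_iff_mul_eq_one]; exact hyy i
        have e2 : (y' (i + 1))⁻¹ = y' (i + 1) := by rw [inv_eq_iff_mul_eq_one]; exact hyy' _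
        rw [e1, e2]; group
      have := hsq _ h3 (by rw [h4]; exact hzV)
      rwa [h4] at this
  have hsame : ∀ i, y i ∈ W ↔ y' i ∈ W := by
    intro i
    constructor
    · intro h
      have := W.mul_mem (W.inv_mem h) (hprod i)
      simpa using this
    · intro h
      have := W.mul_mem (hprod i) (W.inv_mem h)
      simpa using this
  have hpar : ∀ i, y i ∈ W ↔ Even i := by
    intro i
    induction i with
    | zero => simp only [hy, pow_zero, MulAut.one_apply, Even.zero, iff_true]; exact B.hV hv₁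
    | succ i ih =>
      rw [hsame (i + 1), Nat.even_add_one, ← ih]
      constructor
      · intro h1 h2
        exact (hkey i).1 h2 h1
      · intro h1
        by_contra h2
        exact h1 ((hkey i).2 h2)
  have h1 := (hpar n).not.mpr (by simpa using hn)
  apply h1
  simp only [hy]
  rw [hτn]
  exact B.hV hv₁

end Cfsg.Agent.Lib.NilMax
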