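import Mathlib
import Cfsg.Agent.Lib.NilMax.Choice

/-!
# The Hall subgroup `L` of `N_G(W)` modulo `W`
-/

set_option autoImplicit false
set_option linter.unusedVariables false
set_option linter.unusedSectionVars false
set_option linter.style.haveILetI false

namespace Cfsg.Agent.Lib.NilMax

open Subgroup Cfsg.Agent.Lib.Fusion.GroupSylow
open scoped commutatorElement

variable {G : Type*} [Group G] [Finite G]

/-- The output of `hall_of_quot`, transported from `N_G(W)` to `G`. -/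
structure LBlock (S : Sylow 2 G) (W L : Subgroup G) : Prop where
  hLH : L ≤ normalizer (W : Set G)
  hodd : Odd (Nat.card L)
  hsup : ∀ h ∈ normalizer (W : Set G), ∀ x ∈ W ⊔ L, h * x * h⁻¹ ∈ W ⊔ L
  hall : ∀ y ∈ normalizer (W : Set G), Odd (orderOf y) → y ∈ W ⊔ L
  hgen : ∀ s ∈ (S : Subgroup G), ∀ s' ∈ (S : Subgroup G), s ∉ W → s' ∉ W → s * s' ∉ W →
    (∀ t ∈ (S : Subgroup G), t * t ∈ W) →
    (∀ t ∈ (S : Subgroup G), ∀ t' ∈ (S : Subgroup G), ⁅t, t'⁆ ∈ W) →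
    ∀ l ∈ L, ∃ c ∈ centralizer (W : Set G), c⁻¹ * l ∈ W

namespace Ext

variable {S : Sylow 2 G} {W : Subgroup G}

theorem central_mem (E : Ext S W) {x : G} (hx : x ∈ (S : Subgroup G))
    (hc : ∀ s ∈ (S : Subgroup G), x * s = s * x) : x ∈ W :=
  E.hCW x hx (mem_centralizer_iff.mpr fun w hw => (hc w (E.hWS hw)).symm)

theorem comm_mem (E : Ext S W) (hcl : ∀ x ∈ (S : Subgroup G), ∀ y ∈ (S : Subgroup G),
    ∀ s ∈ (S : Subgroup G), ⁅x, y⁆ * s = s * ⁅x, y⁆) {x y : G} (hx : x ∈ (S : Subgroup G))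
    (hy : y ∈ (S : Subgroup G)) : ⁅x, y⁆ ∈ W :=
  E.central_mem (commutator_mem_S hx hy) (hcl x hx y hy)
where
  commutator_mem_S {x y : G} (hx : x ∈ (S : Subgroup G)) (hy : y ∈ (S : Subgroup G)) :
      ⁅x, y⁆ ∈ (S : Subgroup G) := by
    rw [commutatorElement_def]
    exact mul_mem (mul_mem (mul_mem hx hy) (inv_mem hx)) (inv_mem hy)

theorem le_normalizer (E : Ext S W) (hcl : ∀ x ∈ (S : Subgroup G), ∀ y ∈ (S : Subgroup G),
    ∀ s ∈ (S : Subgroup G), ⁅x, y⁆ * s = s * ⁅x, y⁆) :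
    (S : Subgroup G) ≤ normalizer (W : Set G) := by
  intro s hs
  apply mem_normalizer_of_conj_mem'
  intro w hw
  have h1 := E.comm_mem hcl hs (E.hWS hw)
  have h2 : s * w * s⁻¹ = ⁅s, w⁆ * w := by
    rw [commutatorElement_def]; group
  rw [h2]
  exact mul_mem h1 hw

theorem comm_mem_center (E : Ext S W) (hcl : ∀ x ∈ (S : Subgroup G), ∀ y ∈ (S : Subgroup G),
    ∀ s ∈ (S : Subgroup G), ⁅x, y⁆ * s = s * ⁅x, y⁆) {x y : G} (hx : x ∈ (S : Subgroup G))
    (hy : y ∈ (S : Subgroup G)) : ⁅x, y⁆ ∈ W ⊓ centralizer (W : Set G) := by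
  refine ⟨E.comm_mem hcl hx hy, mem_centralizer_iff.mpr fun w hw => ?_⟩
  exact (hcl x hx y hy w (E.hWS hw)).symm

/-- `[W, y] ≤ Z(W)` for odd elements `y` of `N_G(W)`. -/
theorem odd_comm_mem (E : Ext S W) (hcl : ∀ x ∈ (S : Subgroup G), ∀ y ∈ (S : Subgroup G),
    ∀ s ∈ (S : Subgroup G), ⁅x, y⁆ * s = s * ⁅x, y⁆)
    (hPS : ∀ g ∈ normalizer ((S : Subgroup G) : Set G), Odd (orderOf g) →
      g ∈ centralizer ((S : Subgroup G) : Set G))
    {y : G} (hy : y ∈ normalizer (W : Set G)) (hodd : Odd (orderOf y)) :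
    ∀ w ∈ W, ⁅w, y⁆ ∈ W ⊓ centralizer (W : Set G) := by
  have hyZ : y ∈ normalizer ((W ⊓ centralizer (W : Set G) : Subgroup G) : Set G) := by
    apply mem_normalizer_of_conj_mem'
    rintro z ⟨hz1, hz2⟩
    refine ⟨(mem_normalizer_iff.mp hy z).mp hz1, mem_centralizer_iff.mpr fun w hw => ?_⟩
    have h1 : y⁻¹ * w * y⁻¹⁻¹ ∈ W := (mem_normalizer_iff.mp (inv_mem hy) w).mp hw
    have h2 := mem_centralizer_iff.mp hz2 _ h1
    calc w * (y * z * y⁻¹) = y * ((y⁻¹ * w * y⁻¹⁻¹) * z) * y⁻¹ := by group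
      _ = y * (z * (y⁻¹ * w * y⁻¹⁻¹)) * y⁻¹ := by rw [h2]
      _ = y * z * y⁻¹ * w := by group
  have h := sec_trivial (B := W) (Z := W ⊓ centralizer (W : Set G)) hPS E.hWS (fun s hs => by
    refine ⟨E.le_normalizer hcl hs, fun b hb => ?_⟩
    have h1 : b⁻¹ * (s * b * s⁻¹) = ⁅b⁻¹, s⁆ := by
      rw [commutatorElement_def]; group
    rw [h1]
    exact E.comm_mem_center hcl (inv_mem (E.hWS hb)) hs) hy hyZ hodd
  intro w hw
  have h1 := h w⁻¹ (inv_mem hw)
  have h2 : w⁻¹⁻¹ * (y * w⁻¹ * y⁻¹) = ⁅w, y⁆ := by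
    rw [commutatorElement_def]; group
  rwa [h2] at h1

theorem exists_lblock (E : Ext S W) (hcl : ∀ x ∈ (S : Subgroup G), ∀ y ∈ (S : Subgroup G),
    ∀ s ∈ (S : Subgroup G), ⁅x, y⁆ * s = s * ⁅x, y⁆) : ∃ L, LBlock S W L := by
  classical
  set H : Subgroup G := normalizer (W : Set G) with hH
  have hSH : (S : Subgroup G) ≤ H := E.le_normalizer hcl
  have hWH : W ≤ H := Subgroup.le_normalizer
  let W' : Subgroup H := W.subgroupOf H
  haveI hW'n : W'.Normal := normal_subgroupOf_of_le_normalizer le_rfl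
  let S' : Sylow 2 H := S.subtype hSH
  have hS' : (S' : Subgroup H) = (S : Subgroup G).subgroupOf H := Sylow.coe_subtype _ _
  have hW2 : IsPGroup 2 W' :=
    (S.isPGroup'.to_le E.hWS).comap_of_injective H.subtype H.subtype_injective
  have hW'S' : W' ≤ S' := by
    rw [hS']
    intro w hw
    exact E.hWS hw
  have hmax : ∀ P : Subgroup H, W' < P → P ≤ S' → ∀ y ∈ normalizer (P : Set H), Odd (orderOf y) →
      y ∈ centralizer (P : Set H) := by
    intro P hP hPS y hy hodd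
    rw [hS'] at hPS
    have h1 : W < P.map H.subtype := by
      refine lt_of_le_of_ne ?_ ?_
      · intro w hw
        exact ⟨⟨w, hWH hw⟩, hP.le (show (⟨w, hWH hw⟩ : H) ∈ W' from hw), rfl⟩
      · intro heq
        apply hP.ne
        apply le_antisymm hP.le
        intro p hp
        have : (p : G) ∈ P.map H.subtype := ⟨p, hp, rfl⟩
        rw [← heq] at this
        exact this
    have h2 : P.map H.subtype ≤ S := by
      rintro _ ⟨p, hp, rfl⟩
      exact hPS hp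
    have h3 : (y : G) ∈ normalizer ((P.map H.subtype : Subgroup G) : Set G) := by
      apply mem_normalizer_of_conj_mem'
      rintro _ ⟨p, hp, rfl⟩
      exact ⟨y * p * y⁻¹, (mem_normalizer_iff.mp hy p).mp hp, rfl⟩
    have h4 : Odd (orderOf (y : G)) := by
      rwa [Subgroup.orderOf_coe]
    have h5 := E.hnon _ h1 h2 _ h3 h4
    rw [mem_centralizer_iff]
    intro p hp
    have h6 := mem_centralizer_iff.mp h5 (p : G) ⟨p, hp, rfl⟩
    exact Subtype.ext h6
  obtain ⟨L', hL1, hL2, hL3, hL4⟩ := hall_of_quot W' hW2 S' hW'S' hmax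
  have hmapW : W'.map H.subtype = W := map_subgroupOf_eq_of_le hWH
  have hsupmap : W ⊔ L'.map H.subtype = (W' ⊔ L').map H.subtype := by
    rw [Subgroup.map_sup, hmapW]
  refine ⟨L'.map H.subtype, ?_⟩
  constructor
  · exact map_subtype_le L'
  · rwa [Subgroup.card_map_of_injective H.subtype_injective]
  · intro h hh x hx
    rw [hsupmap] at hx ⊢
    obtain ⟨x', hx', rfl⟩ := hx
    exact ⟨(⟨h, hh⟩ : H) * x' * (⟨h, hh⟩ : H)⁻¹, hL2.conj_mem x' hx' _, rfl⟩
  · intro y hy hodd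
    rw [hsupmap]
    refine ⟨⟨y, hy⟩, hL3 _ ?_, rfl⟩
    have : orderOf (⟨y, hy⟩ : H) = orderOf y := Subgroup.orderOf_mk y hy
    rwa [this]
  · intro s hs s' hs' hsW hs'W hss' hsq hcomm l hl
    obtain ⟨l', hl', rfl⟩ := hl
    have hsS : (⟨s, hSH hs⟩ : H) ∈ (S' : Subgroup H) := by rw [hS']; exact hs
    have hs'S : (⟨s', hSH hs'⟩ : H) ∈ (S' : Subgroup H) := by rw [hS']; exact hs'
    obtain ⟨c, hc1, hc2⟩ := hL4 _ hsS _ hs'S hsW hs'W hss'
      (fun t ht => by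
        rw [hS'] at ht
        exact hsq _ ht)
      (fun t ht t' ht' => by
        rw [hS'] at ht ht'
        exact hcomm _ ht _ ht')
      l' hl'
    refine ⟨c, ?_, hc2⟩
    rw [mem_centralizer_iff]
    intro w hw
    have h := mem_centralizer_iff.mp hc1 (⟨w, hWH hw⟩ : H) hw
    exact congrArg Subtype.val h

end Ext

end Cfsg.Agent.Lib.NilMax
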