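import Mathlib
import Cfsg.Agent.Lib.NilMax.LBlock

/-!
# The subgroup `V = [W, L]`
-/

set_option autoImplicit false
set_option linter.unusedVariables false
set_option linter.unusedSectionVars false
set_option linter.style.haveILetI false

namespace Cfsg.Agent.Lib.NilMax

open Subgroup Cfsg.Agent.Lib.Fusion.GroupSylow
open Cfsg.Agent.Lib.Coprime.Coset
open scoped commutatorElement

variable {G : Type*} [Group G] [Finite G]

/-- The elements of `V` of the form `f u`, `u ∈ V` (used for involutions and squares). -/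
def invSub (V : Subgroup G) (hab : ∀ a ∈ V, ∀ b ∈ V, a * b = b * a) : Subgroup G where
  carrier := {v | v ∈ V ∧ v * v = 1}
  mul_mem' := by
    rintro a b ⟨ha, ha2⟩ ⟨hb, hb2⟩
    refine ⟨V.mul_mem ha hb, ?_⟩
    calc a * b * (a * b) = a * (b * a) * b := by group
      _ = a * (a * b) * b := by rw [hab b hb a ha]
      _ = (a * a) * (b * b) := by group
      _ = 1 := by rw [ha2, hb2, one_mul]
  one_mem' := ⟨V.one_mem, by simp⟩
  inv_mem' := by
    rintro a ⟨ha, ha2⟩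
    refine ⟨V.inv_mem ha, ?_⟩
    rw [← mul_inv_rev, ha2, inv_one]

theorem mem_invSub {V : Subgroup G} {hab : ∀ a ∈ V, ∀ b ∈ V, a * b = b * a} {v : G} :
    v ∈ invSub V hab ↔ v ∈ V ∧ v * v = 1 := Iff.rfl

/-- The squares of an abelian subgroup. -/
def sqSub (V : Subgroup G) (hab : ∀ a ∈ V, ∀ b ∈ V, a * b = b * a) : Subgroup G where
  carrier := {v | ∃ u ∈ V, u * u = v}
  mul_mem' := by
    rintro _ _ ⟨a, ha, rfl⟩ ⟨b, hb, rfl⟩
    refine ⟨a * b, V.mul_mem ha hb, ?_⟩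
    calc a * b * (a * b) = a * (b * a) * b := by group
      _ = a * (a * b) * b := by rw [hab b hb a ha]
      _ = (a * a) * (b * b) := by group
  one_mem' := ⟨1, V.one_mem, by simp⟩
  inv_mem' := by
    rintro _ ⟨a, ha, rfl⟩
    exact ⟨a⁻¹, V.inv_mem ha, by rw [mul_inv_rev]⟩

theorem mem_sqSub {V : Subgroup G} {hab : ∀ a ∈ V, ∀ b ∈ V, a * b = b * a} {v : G} :
    v ∈ sqSub V hab ↔ ∃ u ∈ V, u * u = v := Iff.rfl

/-- Data of the argument: the extremal `W` and the Hall subgroup `L`. -/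
structure Setup (S : Sylow 2 G) (W L : Subgroup G) : Prop where
  E : Ext S W
  LB : LBlock S W L
  hcl : ∀ x ∈ (S : Subgroup G), ∀ y ∈ (S : Subgroup G), ∀ s ∈ (S : Subgroup G),
    ⁅x, y⁆ * s = s * ⁅x, y⁆
  hPS : ∀ g ∈ normalizer ((S : Subgroup G) : Set G), Odd (orderOf g) →
      g ∈ centralizer ((S : Subgroup G) : Set G)

namespace Setup

variable {S : Sylow 2 G} {W L : Subgroup G} (D : Setup S W L)

include D

theorem hW2 : IsPGroup 2 W := S.isPGroup'.to_le D.E.hWS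

theorem odd_of_mem {l : G} (hl : l ∈ L) : Odd (orderOf l) :=
  Odd.of_dvd_nat D.LB.hodd (Subgroup.orderOf_dvd_natCard L hl)

theorem cop : (Nat.card L).Coprime (Nat.card W) := by
  obtain ⟨k, hk⟩ := IsPGroup.iff_card.mp D.hW2
  rw [hk]
  exact Nat.Coprime.pow_right _ (Nat.coprime_two_right.mpr D.LB.hodd)

theorem solvW : Group.IsSolvable L ∨ Group.IsSolvable W := by
  right
  have := D.hW2.isNilpotent
  infer_instance

theorem V_le : ⁅W, L⁆ ≤ W := commutator_le_left_of_le_normalizer D.LB.hLH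

theorem V_le_center : ⁅W, L⁆ ≤ W ⊓ centralizer (W : Set G) := by
  rw [Subgroup.commutator_le]
  intro w hw l hl
  exact D.E.odd_comm_mem D.hcl D.hPS (D.LB.hLH hl) (D.odd_of_mem hl) w hw

theorem V_comm (v w : G) (hv : v ∈ ⁅W, L⁆) (hw : w ∈ W) : v * w = w * v :=
  ((mem_centralizer_iff.mp (D.V_le_center hv).2 w hw)).symm

theorem V_ab : ∀ a ∈ ⁅W, L⁆, ∀ b ∈ ⁅W, L⁆, a * b = b * a := fun a ha b hb =>
  D.V_comm a b ha (D.V_le hb)

theorem V_comm_comm : ⁅⁅W, L⁆, L⁆ = ⁅W, L⁆ :=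
  commutator_commutator_eq D.LB.hLH D.cop D.solvW

theorem V_inf : ⁅W, L⁆ ⊓ centralizer (L : Set G) = ⊥ := by
  haveI : IsMulCommutative (⁅W, L⁆ : Subgroup G) := ⟨⟨fun a b => Subtype.ext (D.V_ab a a.2 b b.2)⟩⟩
  have hAV : L ≤ normalizer ((⁅W, L⁆ : Subgroup G) : Set G) := by
    intro l hl
    apply mem_normalizer_of_conj_mem'
    intro v hv
    have h1 : ⁅v, l⁆ ∈ ⁅⁅W, L⁆, L⁆ := commutator_mem_commutator hv hl
    rw [D.V_comm_comm] at h1
    have h2 : l * v * l⁻¹ = ⁅v, l⁆⁻¹ * v := by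
      rw [commutatorElement_def]; group
    rw [h2]
    exact mul_mem (inv_mem h1) hv
  have hcop : (Nat.card L).Coprime (Nat.card (⁅W, L⁆ : Subgroup G)) :=
    Nat.Coprime.coprime_dvd_right (Subgroup.card_dvd_of_le D.V_le) D.cop
  have h := (Cfsg.Agent.Lib.Coprime.Averaging.centralizer_inf_commutator_and_sup L ⁅W, L⁆ hAV hcop).1
  rw [D.V_comm_comm] at h
  rw [eq_bot_iff]
  intro x hx
  have : x ∈ (⁅W, L⁆ ⊓ centralizer (L : Set G)) ⊓ ⁅W, L⁆ := ⟨hx, hx.1⟩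
  rwa [h] at this

theorem exists_decomp {w : G} (hw : w ∈ W) :
    ∃ c ∈ W ⊓ centralizer (L : Set G), w⁻¹ * c ∈ ⁅W, L⁆ :=
  exists_mem_commutator_mul_centralizer D.LB.hLH D.cop D.solvW hw

theorem exists_moved : ∃ l ∈ L, l ∉ centralizer (W : Set G) := by
  by_contra hcon
  push Not at hcon
  obtain ⟨x, hx1, hx2, hx3⟩ := D.E.hx
  apply hx3
  obtain ⟨w₁, hw₁, l₁, hl₁, rfl⟩ := (mem_sup_iff_of_le_normalizer D.LB.hLH _).mp (D.LB.hall x hx1 hx2)
  have hl₁C := hcon l₁ hl₁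
  apply mem_centralizer_of_comm (Z' := W ⊓ centralizer (W : Set G)) hx1 hx2 D.hW2
  · intro w hw k
    refine D.E.odd_comm_mem D.hcl D.hPS (zpow_mem hx1 k) ?_ w hw
    exact Odd.of_dvd_nat hx2 (orderOf_dvd_of_pow_eq_one (by
      rw [← zpow_natCast, ← zpow_mul, mul_comm, zpow_mul, zpow_natCast, pow_orderOf_eq_one, one_zpow]))
  · rintro z ⟨hz1, hz2⟩
    have h1 : w₁ * z = z * w₁ := mem_centralizer_iff.mp hz2 w₁ hw₁
    have h2 : l₁ * z = z * l₁ := (mem_centralizer_iff.mp hl₁C z hz1).symm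
    calc w₁ * l₁ * z = w₁ * (l₁ * z) := by group
      _ = w₁ * (z * l₁) := by rw [h2]
      _ = (w₁ * z) * l₁ := by group
      _ = z * (w₁ * l₁) := by rw [h1]; group

theorem V_normal {h : G} (hh : h ∈ normalizer (W : Set G)) {v : G} (hv : v ∈ ⁅W, L⁆) :
    h * v * h⁻¹ ∈ ⁅W, L⁆ := by
  have h1 : cj h L ≤ W ⊔ L := by
    rw [cj_le_iff]
    intro l hl
    exact D.LB.hsup h hh l (mem_sup_right hl)
  obtain ⟨n, hn, hnL⟩ := exists_conj_eq_of_card_eq D.LB.hLH D.cop D.solvW h1 (card_cj h L)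
  have h2 : ⁅W, L⁆ ≤ (⁅W, L⁆ : Subgroup G).comap (MulAut.conj h).toMonoidHom := by
    rw [Subgroup.commutator_le]
    intro w hw l hl
    have h3 : h * l * h⁻¹ ∈ cj h L := conj_mem_cj hl
    rw [← hnL] at h3
    obtain ⟨l', hl', hl'2⟩ := h3
    have hl'3 : h * l * h⁻¹ = n * l' * n⁻¹ := by
      rw [← hl'2]; rfl
    have hw2 : h * w * h⁻¹ ∈ W := (mem_normalizer_iff.mp hh w).mp hw
    have hw3 : n⁻¹ * (h * w * h⁻¹) * n ∈ W := mul_mem (mul_mem (inv_mem hn) hw2) hn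
    have h4 : ⁅n⁻¹ * (h * w * h⁻¹) * n, l'⁆ ∈ ⁅W, L⁆ := commutator_mem_commutator hw3 hl'
    have h5 : h * ⁅w, l⁆ * h⁻¹ = n * ⁅n⁻¹ * (h * w * h⁻¹) * n, l'⁆ * n⁻¹ := by
      have e1 : h * ⁅w, l⁆ * h⁻¹ = ⁅h * w * h⁻¹, h * l * h⁻¹⁆ := by
        simp only [commutatorElement_def]; group
      rw [e1, hl'3]
      simp only [commutatorElement_def]; group
    have h6 := D.V_comm _ n h4 hn
    change (MulAut.conj h) ⁅w, l⁆ ∈ (⁅W, L⁆ : Subgroup G)
    rw [MulAut.conj_apply, h5, ← h6]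
    simpa using h4
  have := h2 hv
  simpa using this

theorem V1_normal {h : G} (hh : h ∈ normalizer (W : Set G)) {v : G}
    (hv : v ∈ invSub ⁅W, L⁆ D.V_ab) : h * v * h⁻¹ ∈ invSub ⁅W, L⁆ D.V_ab := by
  refine ⟨D.V_normal hh hv.1, ?_⟩
  have h1 : v * v = 1 := hv.2
  calc h * v * h⁻¹ * (h * v * h⁻¹) = h * (v * v) * h⁻¹ := by group
    _ = 1 := by rw [h1]; group

/-- A moved element of `L` moves the involutions of `V`. -/
theorem moved_V1 {l : G} (hl : l ∈ L) (hl₀ : l ∉ centralizer (W : Set G)) :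
    ∃ v ∈ invSub ⁅W, L⁆ D.V_ab, l * v * l⁻¹ ≠ v := by
  by_contra hcon
  push Not at hcon
  have hlN : l ∈ normalizer ((⁅W, L⁆ : Subgroup G) : Set G) := by
    apply mem_normalizer_of_conj_mem'
    intro v hv
    exact D.V_normal (D.LB.hLH hl) hv
  have hlodd := D.odd_of_mem hl
  have h2 := fix_of_fix_involutions (D.hW2.to_le D.V_le) D.V_ab hlN hlodd
    (fun v hv hv2 => hcon v ⟨hv, hv2⟩)
  apply hl₀
  apply mem_centralizer_of_comm (Z' := ⁅W, L⁆) (D.LB.hLH hl) hlodd D.hW2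
  · intro w hw k
    exact commutator_mem_commutator hw (zpow_mem hl k)
  · intro z hz
    have := h2 z hz
    calc l * z = (l * z * l⁻¹) * l := by group
      _ = z * l := by rw [this]

/-- `C_S(V₁) ≤ W`. -/
theorem cent_V1 {l : G} (hl : l ∈ L) (hl₀ : l ∉ centralizer (W : Set G)) {s : G}
    (hs : s ∈ (S : Subgroup G)) (hc : ∀ v ∈ invSub ⁅W, L⁆ D.V_ab, v * s = s * v) : s ∈ W := by
  set V₁ := invSub ⁅W, L⁆ D.V_ab with hV₁
  set H : Subgroup G := normalizer (W : Set G) with hH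
  have hSH : (S : Subgroup G) ≤ H := D.E.le_normalizer D.hcl
  set R : Subgroup G := H ⊓ centralizer (V₁ : Set G) with hR
  have hRn : ∀ n ∈ H, ∀ r ∈ R, n * r * n⁻¹ ∈ R := by
    rintro n hn r ⟨hr1, hr2⟩
    refine ⟨H.mul_mem (H.mul_mem hn hr1) (H.inv_mem hn), mem_centralizer_iff.mpr fun v hv => ?_⟩
    have h1 : n⁻¹ * v * n⁻¹⁻¹ ∈ V₁ := D.V1_normal (inv_mem hn) hv
    have h2 := mem_centralizer_iff.mp hr2 _ h1
    calc v * (n * r * n⁻¹) = n * ((n⁻¹ * v * n⁻¹⁻¹) * r) * n⁻¹ := by group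
      _ = n * (r * (n⁻¹ * v * n⁻¹⁻¹)) * n⁻¹ := by rw [h2]
      _ = n * r * n⁻¹ * v := by group
  have hsyl : IsSylowIn 2 ((S : Subgroup G) ⊓ R) R :=
    Cfsg.Agent.Lib.Fusion.SatCrit.isSylowIn_inf_of_normal hSH inf_le_left (isSylowIn_of_sylow_le S hSH) hRn
  have hlN : l ∈ normalizer (R : Set G) := by
    apply mem_normalizer_of_conj_mem'
    exact hRn l (D.LB.hLH hl)
  obtain ⟨x', h1, h2, h3⟩ := exists_odd_normalizer hsyl inf_le_right hlN (D.odd_of_mem hl)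
  have hxH : x' ∈ H := by
    have := mul_mem h3.1 (D.LB.hLH hl)
    simpa using this
  have hxC : x' ∉ centralizer (W : Set G) := by
    intro hcx
    obtain ⟨v, hv, hne⟩ := D.moved_V1 hl hl₀
    apply hne
    have hv2 : l * v * l⁻¹ ∈ V₁ := D.V1_normal (D.LB.hLH hl) hv
    have h4 : x' * l⁻¹ * (l * v * l⁻¹) = (l * v * l⁻¹) * (x' * l⁻¹) :=
      (mem_centralizer_iff.mp h3.2 _ hv2).symm
    have h5 : v * x' = x' * v := mem_centralizer_iff.mp hcx v (D.V_le hv.1)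
    have h6 : x' * v * l⁻¹ = l * v * l⁻¹ * (x' * l⁻¹) := by
      rw [← h4]; group
    rw [← h5] at h6
    have h7 : v * x' = l * v * l⁻¹ * x' := by
      have := congrArg (· * l) h6
      simpa [mul_assoc] using this
    exact (mul_right_cancel h7).symm
  have h8 := D.E.hle _ inf_le_left x' hxH h2 h1 hxC
  exact h8 ⟨hs, hSH hs, mem_centralizer_iff.mpr fun v hv => hc v hv⟩

end Setup

end Cfsg.Agent.Lib.NilMax
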