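import Mathlib
import Cfsg.Agent.Lib.NilMax.VBlock
import Cfsg.Agent.Lib.NilMax.Cycle
import Cfsg.Agent.S0071

/-!
# A 2-nilpotence criterion for a Sylow 2-subgroup of class at most two

If `S` is a Sylow 2-subgroup of class at most two of `G`, invariant under a group of odd order
`A` of automorphisms of `G`, and the odd elements normalising any nontrivial `A`-invariant normal
subgroup of `S` centralise `S`, then `G` has a normal 2-complement.
-/

set_option autoImplicit false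
set_option linter.unusedVariables false
set_option linter.unusedSectionVars false
set_option linter.style.haveILetI false

namespace Cfsg.Agent.Lib.NilMax

open Subgroup Cfsg.Agent.Lib.Fusion.GroupSylow
open scoped commutatorElement

variable {G : Type*} [Group G] [Finite G]

namespace Setup

variable {S : Sylow 2 G} {W L : Subgroup G} (D : Setup S W L)

include D

theorem sq_mem {l : G} (hl : l ∈ L) (hl₀ : l ∉ centralizer (W : Set G)) {s : G}
    (hs : s ∈ (S : Subgroup G)) : s * s ∈ W := by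
  apply D.cent_V1 hl hl₀ (mul_mem hs hs)
  rintro v ⟨hv, hv2⟩
  have hvS : v ∈ (S : Subgroup G) := D.E.hWS (D.V_le hv)
  set c := ⁅s, v⁆ with hc
  have hcS : ∀ t ∈ (S : Subgroup G), c * t = t * c := D.hcl s hs v hvS
  have h1 : s * v * s⁻¹ = c * v := by
    rw [hc, commutatorElement_def]; group
  have h2 : (c * v) * (c * v) = 1 := by
    rw [← h1]
    calc s * v * s⁻¹ * (s * v * s⁻¹) = s * (v * v) * s⁻¹ := by group
      _ = 1 := by rw [hv2]; group
  have h3 : c * c = 1 := by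
    calc c * c = c * c * (v * v) := by rw [hv2, mul_one]
      _ = c * (c * v) * v := by group
      _ = c * (v * c) * v := by rw [hcS v hvS]
      _ = (c * v) * (c * v) := by group
      _ = 1 := h2
  have h4 : s * c = c * s := (hcS s hs).symm
  have h5 : (s * s) * v * (s * s)⁻¹ = v := by
    calc (s * s) * v * (s * s)⁻¹ = s * (s * v * s⁻¹) * s⁻¹ := by group
      _ = s * (c * v) * s⁻¹ := by rw [h1]
      _ = (s * c) * v * s⁻¹ := by group
      _ = c * (s * v * s⁻¹) := by rw [h4]; group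
      _ = c * (c * v) := by rw [h1]
      _ = (c * c) * v := by group
      _ = v := by rw [h3, one_mul]
  calc v * (s * s) = ((s * s) * v * (s * s)⁻¹) * (s * s) := by rw [h5]
    _ = s * s * v := by group

theorem hidx {l : G} (hl : l ∈ L) (hl₀ : l ∉ centralizer (W : Set G)) :
    ∀ s ∈ (S : Subgroup G), ∀ s' ∈ (S : Subgroup G), s ∉ W → s' ∉ W → s * s' ∈ W := by
  intro s hs s' hs' hsW hs'W
  by_contra hss
  obtain ⟨c, hc, hcl⟩ := D.LB.hgen s hs s' hs' hsW hs'W hss (fun t ht => D.sq_mem hl hl₀ ht)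
    (fun t ht t' ht' => D.E.comm_mem D.hcl ht ht') l hl
  apply hl₀
  apply mem_centralizer_of_comm (Z' := W ⊓ centralizer (W : Set G)) (D.LB.hLH hl)
    (D.odd_of_mem hl) D.hW2
  · intro w hw k
    exact D.E.odd_comm_mem D.hcl D.hPS (D.LB.hLH (zpow_mem hl k)) (D.odd_of_mem (zpow_mem hl k)) w hw
  · rintro z ⟨hz1, hz2⟩
    have h1 : z * c = c * z := mem_centralizer_iff.mp hc z hz1
    have h2 : (c⁻¹ * l) * z = z * (c⁻¹ * l) := mem_centralizer_iff.mp hz2 _ hcl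
    calc l * z = c * ((c⁻¹ * l) * z) := by group
      _ = c * (z * (c⁻¹ * l)) := by rw [h2]
      _ = (c * z) * (c⁻¹ * l) := by group
      _ = (z * c) * (c⁻¹ * l) := by rw [h1]
      _ = z * l := by group

theorem block {l : G} (hl : l ∈ L) (hl₀ : l ∉ centralizer (W : Set G)) :
    Block0 (S : Subgroup G) W ⁅W, L⁆ where
  hW := D.E.hWS
  hV := D.V_le
  hidx := D.hidx hl hl₀
  hcent := fun v hv w hw => D.V_comm v w hv hw
  hnorm := fun v hv s hs => D.V_normal (D.E.le_normalizer D.hcl hs) hv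
  hcS := fun s hs hc => D.cent_V1 hl hl₀ hs fun v hv => hc v hv.1

theorem hcomm : ∀ w ∈ W, ∀ w' ∈ W, ⁅w, w'⁆ ∈ (⁅W, L⁆ : Subgroup G) → ⁅w, w'⁆ = 1 := by
  intro w hw w' hw' hin
  obtain ⟨c, hc, hu⟩ := D.exists_decomp hw
  obtain ⟨c', hc', hu'⟩ := D.exists_decomp hw'
  set u := w⁻¹ * c with hu0
  set u' := w'⁻¹ * c' with hu'0
  have hwc : w = c * u⁻¹ := by rw [hu0]; group
  have hwc' : w' = c' * u'⁻¹ := by rw [hu'0]; group
  have hzi : u⁻¹ ∈ (⁅W, L⁆ : Subgroup G) := inv_mem hu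
  have hzi' : u'⁻¹ ∈ (⁅W, L⁆ : Subgroup G) := inv_mem hu'
  have h1 : ⁅w, w'⁆ = ⁅c, c'⁆ := by
    rw [hwc, hwc']
    simp only [commutatorElement_def]
    have e1 := D.V_comm _ c hzi hc.1
    have e2 := D.V_comm _ c' hzi hc'.1
    have e3 := D.V_comm _ c' hzi' hc'.1
    have e4 := D.V_comm _ c hzi' hc.1
    have e5 := D.V_comm _ _ hzi (D.V_le hzi')
    have e6 : c * u⁻¹ * (c' * u'⁻¹) = c * c' * (u⁻¹ * u'⁻¹) := by
      calc c * u⁻¹ * (c' * u'⁻¹) = c * (u⁻¹ * c') * u'⁻¹ := by group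
        _ = c * (c' * u⁻¹) * u'⁻¹ := by rw [e2]
        _ = _ := by group
    have e7 : (c * u⁻¹)⁻¹ = c⁻¹ * u := by
      have : u⁻¹ * c = c * u⁻¹ := e1
      calc (c * u⁻¹)⁻¹ = (u⁻¹ * c)⁻¹ := by rw [this]
        _ = _ := by group
    have e8 : (c' * u'⁻¹)⁻¹ = c'⁻¹ * u' := by
      have : u'⁻¹ * c' = c' * u'⁻¹ := e3
      calc (c' * u'⁻¹)⁻¹ = (u'⁻¹ * c')⁻¹ := by rw [this]
        _ = _ := by group
    rw [e6, e7, e8]
    -- move everything past the central elements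
    have huc : u * c⁻¹ = c⁻¹ * u := by
      have := D.V_comm u c⁻¹ hu (inv_mem hc.1)
      exact this
    have hu'c : u' * c⁻¹ = c⁻¹ * u' := D.V_comm u' c⁻¹ hu' (inv_mem hc.1)
    have huc' : u * c'⁻¹ = c'⁻¹ * u := D.V_comm u c'⁻¹ hu (inv_mem hc'.1)
    have hu'c' : u' * c'⁻¹ = c'⁻¹ * u' := D.V_comm u' c'⁻¹ hu' (inv_mem hc'.1)
    have huu : u⁻¹ * u' = u' * u⁻¹ := D.V_comm u⁻¹ u' hzi (D.V_le hu')
    calc c * c' * (u⁻¹ * u'⁻¹) * (c⁻¹ * u) * (c'⁻¹ * u')
        = c * c' * u⁻¹ * (u'⁻¹ * c⁻¹) * u * c'⁻¹ * u' := by group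
      _ = c * c' * u⁻¹ * (c⁻¹ * u'⁻¹) * u * c'⁻¹ * u' := by
          rw [show u'⁻¹ * c⁻¹ = c⁻¹ * u'⁻¹ from D.V_comm _ _ hzi' (inv_mem hc.1)]
      _ = c * c' * (u⁻¹ * c⁻¹) * u'⁻¹ * u * c'⁻¹ * u' := by group
      _ = c * c' * (c⁻¹ * u⁻¹) * u'⁻¹ * u * c'⁻¹ * u' := by
          rw [show u⁻¹ * c⁻¹ = c⁻¹ * u⁻¹ from D.V_comm _ _ hzi (inv_mem hc.1)]
      _ = c * c' * c⁻¹ * u⁻¹ * u'⁻¹ * (u * c'⁻¹) * u' := by group
      _ = c * c' * c⁻¹ * u⁻¹ * u'⁻¹ * (c'⁻¹ * u) * u' := by rw [huc']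
      _ = c * c' * c⁻¹ * u⁻¹ * (u'⁻¹ * c'⁻¹) * u * u' := by group
      _ = c * c' * c⁻¹ * u⁻¹ * (c'⁻¹ * u'⁻¹) * u * u' := by
          rw [show u'⁻¹ * c'⁻¹ = c'⁻¹ * u'⁻¹ from D.V_comm _ _ hzi' (inv_mem hc'.1)]
      _ = c * c' * c⁻¹ * (u⁻¹ * c'⁻¹) * u'⁻¹ * u * u' := by group
      _ = c * c' * c⁻¹ * (c'⁻¹ * u⁻¹) * u'⁻¹ * u * u' := by
          rw [show u⁻¹ * c'⁻¹ = c'⁻¹ * u⁻¹ from D.V_comm _ _ hzi (inv_mem hc'.1)]
      _ = c * c' * c⁻¹ * c'⁻¹ * (u⁻¹ * (u'⁻¹ * u) * u') := by group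
      _ = c * c' * c⁻¹ * c'⁻¹ * (u⁻¹ * (u * u'⁻¹) * u') := by
          rw [show u'⁻¹ * u = u * u'⁻¹ from D.V_comm _ _ hzi' (D.V_le hu)]
      _ = c * c' * c⁻¹ * c'⁻¹ := by group
  rw [h1] at hin ⊢
  have h2 : ⁅c, c'⁆ ∈ W ⊓ centralizer (L : Set G) := by
    rw [commutatorElement_def]
    exact mul_mem (mul_mem (mul_mem hc hc') (inv_mem hc)) (inv_mem hc')
  have h3 : ⁅c, c'⁆ ∈ ⁅W, L⁆ ⊓ centralizer (L : Set G) := ⟨hin, h2.2⟩
  rw [D.V_inf] at h3
  exact h3

theorem hsq (hell : ∀ v ∈ (⁅W, L⁆ : Subgroup G), v * v = 1) :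
    ∀ r ∈ W, r * r ∈ (⁅W, L⁆ : Subgroup G) → r * r = 1 := by
  intro r hr hin
  obtain ⟨c, hc, hu⟩ := D.exists_decomp hr
  set u := r⁻¹ * c with hu0
  have hwc : r = c * u⁻¹ := by rw [hu0]; group
  have hzi : u⁻¹ ∈ (⁅W, L⁆ : Subgroup G) := inv_mem hu
  have h1 : r * r = c * c := by
    rw [hwc]
    have e1 : u⁻¹ * c = c * u⁻¹ := D.V_comm _ c hzi hc.1
    calc c * u⁻¹ * (c * u⁻¹) = c * (u⁻¹ * c) * u⁻¹ := by group
      _ = c * (c * u⁻¹) * u⁻¹ := by rw [e1]
      _ = c * c * (u⁻¹ * u⁻¹) := by group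
      _ = c * c := by rw [hell _ hzi, mul_one]
  rw [h1] at hin ⊢
  have h3 : c * c ∈ ⁅W, L⁆ ⊓ centralizer (L : Set G) := ⟨hin, (mul_mem hc hc).2⟩
  rw [D.V_inf] at h3
  exact h3

theorem hell_of_central (h : ∀ a ∈ (⁅W, L⁆ : Subgroup G), ∀ s ∈ (S : Subgroup G),
    (a * a) * s = s * (a * a)) : ∀ v ∈ (⁅W, L⁆ : Subgroup G), v * v = 1 := by
  intro v hv
  set B := sqSub ⁅W, L⁆ D.V_ab with hB
  have hBS : B ≤ S := by
    rintro _ ⟨u, hu, rfl⟩
    have : u ∈ (S : Subgroup G) := D.E.hWS (D.V_le hu)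
    exact mul_mem this this
  have hcen : ∀ l ∈ L, l * (v * v) * l⁻¹ = v * v := by
    intro l hl
    have hlB : l ∈ normalizer (B : Set G) := by
      apply mem_normalizer_of_conj_mem'
      rintro _ ⟨u, hu, rfl⟩
      refine ⟨l * u * l⁻¹, D.V_normal (D.LB.hLH hl) hu, by group⟩
    have hl2 : l ∈ normalizer ((⊥ : Subgroup G) : Set G) := by
      apply mem_normalizer_of_conj_mem'
      intro y hy
      rw [mem_bot] at hy ⊢
      rw [hy]
      group
    have h1 := sec_trivial (B := B) (Z := ⊥) D.hPS hBS (fun s hs => by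
      have hcom : ∀ b ∈ B, s * b * s⁻¹ = b := by
        rintro _ ⟨u, hu, rfl⟩
        rw [h u hu s hs |>.symm]
        group
      refine ⟨?_, fun b hb => ?_⟩
      · apply mem_normalizer_of_conj_mem'
        intro b hb
        rwa [hcom b hb]
      · rw [hcom b hb]
        simp [one_mem]) hlB hl2 (D.odd_of_mem hl) (v * v) ⟨v, hv, rfl⟩
    have h2 := (mem_bot).mp h1
    exact (inv_mul_eq_one.mp h2).symm
  have h3 : v * v ∈ ⁅W, L⁆ ⊓ centralizer (L : Set G) := by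
    refine ⟨mul_mem hv hv, mem_centralizer_iff.mpr fun l hl => ?_⟩
    have := hcen l hl
    calc l * (v * v) = (l * (v * v) * l⁻¹) * l := by group
      _ = v * v * l := by rw [this]
  rw [D.V_inf] at h3
  exact h3

end Setup

theorem main2 {A : Type*} [Group A] [Finite A] (S : Sylow 2 G)
    (hcl : ∀ x ∈ (S : Subgroup G), ∀ y ∈ (S : Subgroup G), ∀ s ∈ (S : Subgroup G),
      ⁅x, y⁆ * s = s * ⁅x, y⁆)
    (φ : A →* MulAut G) (hA : Odd (Nat.card A)) (hinv : ∀ a x, x ∈ (S : Subgroup G) ↔ φ a x ∈ (S : Subgroup G))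
    (hP : ∀ Y : Subgroup G, Y ≤ S → Y ≠ ⊥ → (S : Subgroup G) ≤ normalizer (Y : Set G) →
      (∀ a, ∀ y ∈ Y, φ a y ∈ Y) → ∀ g ∈ normalizer (Y : Set G), Odd (orderOf g) →
        g ∈ centralizer ((S : Subgroup G) : Set G)) :
    ∃ N : Subgroup G, N.Normal ∧ N.IsComplement' (S : Subgroup G) := by
  classical
  have hPS : ∀ g ∈ normalizer ((S : Subgroup G) : Set G), Odd (orderOf g) →
      g ∈ centralizer ((S : Subgroup G) : Set G) := by
    intro g hg hodd
    by_cases hS : (S : Subgroup G) = ⊥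
    · rw [hS]
      simp [mem_centralizer_iff]
    · exact hP S le_rfl hS Subgroup.le_normalizer (fun a y hy => (hinv a y).mp hy) g hg hodd
  haveI : Fact (Nat.Prime 2) := ⟨Nat.prime_two⟩
  rw [Cfsg.Agent.S0071.result S]
  by_contra hcon
  push Not at hcon
  obtain ⟨Q, hQ, g, hg, hcop, hgC⟩ := hcon
  have hbad : Bad (S : Subgroup G) Q := ⟨hQ, g, hg, Nat.coprime_two_right.mp hcop, hgC⟩
  obtain ⟨W, E⟩ := exists_ext S ⟨Q, hbad⟩
  obtain ⟨L, LB⟩ := E.exists_lblock hcl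
  have D : Setup S W L := ⟨E, LB, hcl, hPS⟩
  obtain ⟨l, hl, hl₀⟩ := D.exists_moved
  have B := D.block hl hl₀
  by_cases hcase : ∃ a : A, ∃ v₁ ∈ (⁅W, L⁆ : Subgroup G), (φ a).symm v₁ ∉ W
  · obtain ⟨a, v₁, hv₁, hnot⟩ := hcase
    have hell : ∀ v ∈ (⁅W, L⁆ : Subgroup G), v * v = 1 :=
      D.hell_of_central fun b hb => sq_central B (φ a) (hinv a) hv₁ hnot hb
    have hoddn : Odd (orderOf a) := Odd.of_dvd_nat hA (orderOf_dvd_natCard a)
    refine false_of_moved B hcl D.hcomm (D.hsq hell) hell (φ a) (hinv a) hoddn ?_ hv₁ hnot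
    intro x
    rw [← map_pow, pow_orderOf_eq_one, map_one]
    rfl
  · push Not at hcase
    have hsymm : ∀ a : A, ∀ v ∈ (⁅W, L⁆ : Subgroup G), φ a v ∈ W := by
      intro a v hv
      have h1 := hcase a⁻¹ v hv
      have h2 : (φ a⁻¹).symm v = φ a v := by
        rw [map_inv]
        rfl
      rwa [h2] at h1
    let W₀ : Subgroup G := ⨅ a : A, W.comap (φ a).toMonoidHom
    have hW₀ : ∀ x, x ∈ W₀ ↔ ∀ a : A, φ a x ∈ W := by
      intro x
      simp only [W₀, Subgroup.mem_iInf]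
      rfl
    have hW₀W : W₀ ≤ W := by
      intro x hx
      have := (hW₀ x).mp hx 1
      simpa using this
    have hVW₀ : (⁅W, L⁆ : Subgroup G) ≤ W₀ := fun v hv => (hW₀ v).mpr fun a => hsymm a v hv
    have hinv₀ : ∀ a, ∀ y ∈ W₀, φ a y ∈ W₀ := by
      intro b y hy
      rw [hW₀] at hy ⊢
      intro a
      have := hy (a * b)
      rwa [map_mul, MulAut.mul_apply] at this
    have hWne : W ≠ ⊥ := by
      rintro rfl
      obtain ⟨x, -, -, hx⟩ := E.hx
      exact hx (by simp [mem_centralizer_iff])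
    have hSne : Nontrivial (S : Subgroup G) := by
      by_contra hnt
      rw [not_nontrivial_iff_subsingleton] at hnt
      apply hWne
      rw [eq_bot_iff]
      intro w hw
      have : (⟨w, E.hWS hw⟩ : (S : Subgroup G)) = 1 := Subsingleton.elim _ _
      exact congrArg Subtype.val this
    have hZ : Nontrivial (Subgroup.center (S : Subgroup G)) := S.isPGroup'.center_nontrivial
    obtain ⟨z, hz⟩ := exists_ne (1 : Subgroup.center (S : Subgroup G))
    have hzS : ((z : (S : Subgroup G)) : G) ∈ (S : Subgroup G) := (z : (S : Subgroup G)).2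
    have hzc : ∀ s ∈ (S : Subgroup G), ((z : (S : Subgroup G)) : G) * s = s * (z : (S : Subgroup G)) := by
      intro s hs
      have := (Subgroup.mem_center_iff.mp z.2) ⟨s, hs⟩
      exact (congrArg Subtype.val this).symm
    have hz0 : ((z : (S : Subgroup G)) : G) ∈ W₀ := by
      rw [hW₀]
      intro a
      apply E.central_mem ((hinv a _).mp hzS)
      intro s hs
      have hs' : (φ a).symm s ∈ (S : Subgroup G) := by
        rw [hinv a]
        simpa using hs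
      have h1 := hzc _ hs'
      have h2 := congrArg (φ a) h1
      simpa using h2
    have hne₀ : W₀ ≠ ⊥ := by
      intro hb
      rw [hb, mem_bot] at hz0
      apply hz
      ext
      simpa using hz0
    have hSN : (S : Subgroup G) ≤ normalizer (W₀ : Set G) := by
      intro s hs
      apply mem_normalizer_of_conj_mem'
      intro x hx
      rw [hW₀] at hx ⊢
      intro a
      have h1 := E.le_normalizer hcl ((hinv a s).mp hs)
      have h2 := (mem_normalizer_iff.mp h1 _).mp (hx a)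
      simpa using h2
    have hlN : l ∈ normalizer (W₀ : Set G) := by
      apply mem_normalizer_of_conj_mem'
      intro x hx
      have h1 : ⁅x, l⁆ ∈ (⁅W, L⁆ : Subgroup G) := commutator_mem_commutator (hW₀W hx) hl
      have h2 : l * x * l⁻¹ = ⁅x, l⁆⁻¹ * x := by
        rw [commutatorElement_def]; group
      rw [h2]
      exact mul_mem (inv_mem (hVW₀ h1)) hx
    have h := hP W₀ (hW₀W.trans E.hWS) hne₀ hSN hinv₀ l hlN (D.odd_of_mem hl)
    apply hl₀
    exact Subgroup.centralizer_le E.hWS h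

end Cfsg.Agent.Lib.NilMax
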