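import Mathlib
import Cfsg.Agent.Lib.NilMax.Main2
import Cfsg.Agent.Lib.Components.CoprimeMinNil

/-!
# Solvability from a nilpotent maximal invariant subgroup with Sylow 2-subgroups of class at most 2
-/

set_option autoImplicit false
set_option linter.unusedVariables false
set_option linter.unusedSectionVars false
set_option linter.style.haveILetI false

namespace Cfsg.Agent.Lib.NilMax

open Subgroup Cfsg Cfsg.Agent.Lib.Components.CoprimeMinNil
open Cfsg.Agent.Lib.Nilpotent.Elements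
open scoped commutatorElement

universe u v

section restrict

variable {A : Type v} {G : Type u} [Group A] [Group G] [MulDistribMulAction A G]

/-- The action on an invariant subgroup. -/
@[reducible] def restrictAct (K : Subgroup G) (hK : Inv A K) : MulDistribMulAction A K where
  smul a k := ⟨a • k.1, hK a k.1 k.2⟩
  one_smul k := Subtype.ext (one_smul A k.1)
  mul_smul a b k := Subtype.ext (mul_smul a b k.1)
  smul_mul a x y := Subtype.ext (smul_mul' a x.1 y.1)
  smul_one a := Subtype.ext (smul_one a)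

/-- The hypotheses of the main theorem. -/
structure Hyp (A : Type v) {G : Type u} [Group A] [Group G] [MulDistribMulAction A G]
    (M T : Subgroup G) : Prop where
  htop : M ≠ ⊤
  hinv : Inv A M
  hmax : ∀ H : Subgroup G, M ≤ H → H ≠ ⊤ → Inv A H → H = M
  hnil : Group.IsNilpotent M
  hTM : T ≤ M
  hT2 : IsPGroup 2 T
  hTk : ∀ y ∈ M, ∃ k, Odd k ∧ y ^ k ∈ T
  hTcl : ∀ x ∈ T, ∀ y ∈ T, ∀ s ∈ T, ⁅x, y⁆ * s = s * ⁅x, y⁆

/-- The hypotheses pass to quotients by invariant normal subgroups inside `M`. -/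
theorem Hyp.quot {M T Y : Subgroup G} [hYn : Y.Normal] (H : Hyp A M T) (hY : Inv A Y) (hYM : Y ≤ M) :
    @Hyp A (G ⧸ Y) _ _ (quotAction Y hY) (M.map (QuotientGroup.mk' Y)) (T.map (QuotientGroup.mk' Y)) := by
  letI act := quotAction Y hY
  let π := QuotientGroup.mk' Y
  have hπ : Function.Surjective π := QuotientGroup.mk'_surjective Y
  have hmem : ∀ g, π g ∈ M.map π → g ∈ M := by
    rintro g ⟨m, hm, hmg⟩
    have h1 : m⁻¹ * g ∈ Y := QuotientGroup.eq.mp hmg
    have := M.mul_mem hm (hYM h1)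
    simpa using this
  refine ⟨?_, ?_, ?_, ?_, map_mono H.hTM, H.hT2.map π, ?_, ?_⟩
  · intro h
    apply H.htop
    rw [eq_top_iff]
    intro g _
    apply hmem
    show π g ∈ M.map π
    rw [show M.map (QuotientGroup.mk' Y) = ⊤ from h]
    exact mem_top _
  · rintro a _ ⟨m, hm, rfl⟩
    exact ⟨a • m, H.hinv a m hm, rfl⟩
  · intro C hMC hCt hC
    have h1 : C.comap π ≠ ⊤ := by
      intro h
      apply hCt
      rw [← Subgroup.map_comap_eq_self_of_surjective hπ C, h, ← MonoidHom.range_eq_map]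
      exact QuotientGroup.range_mk' Y
    have h2 := H.hmax (C.comap π) (by
      intro m hm
      exact hMC ⟨m, hm, rfl⟩) h1 (fun a x hx => hC a _ hx)
    rw [← h2, Subgroup.map_comap_eq_self_of_surjective hπ C]
  · haveI := H.hnil
    exact Group.nilpotent_of_surjective (π.subgroupMap M) (π.subgroupMap_surjective M)
  · rintro _ ⟨m, hm, rfl⟩
    obtain ⟨k, hk, hk'⟩ := H.hTk m hm
    exact ⟨k, hk, ⟨m ^ k, hk', by simp⟩⟩
  · rintro _ ⟨x, hx, rfl⟩ _ ⟨y, hy, rfl⟩ _ ⟨s, hs, rfl⟩
    have h := congrArg π (H.hTcl x hx y hy s hs)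
    simpa only [map_mul, map_commutatorElement] using h

end restrict

section main

variable {A : Type v} {G : Type u} [Group A] [Group G] [Finite A] [Finite G] [MulDistribMulAction A G]
variable {M T : Subgroup G}

/-- Splitting an element into its 2-part and odd part. -/
theorem exists_two_odd_split (x : G) : ∃ s u : G, s ∈ zpowers x ∧ u ∈ zpowers x ∧ x = s * u ∧
    (∃ a : ℕ, s ^ 2 ^ a = 1) ∧ Odd (orderOf u) := by
  have h0 : orderOf x ≠ 0 := (orderOf_pos x).ne'
  obtain ⟨a, m, hm, hoa⟩ := Nat.exists_eq_two_pow_mul_odd h0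
  have hcop : IsCoprime ((2 ^ a : ℕ) : ℤ) (m : ℤ) :=
    Nat.isCoprime_iff_coprime.mpr (Nat.Coprime.pow_left _ (Nat.coprime_two_left.mpr hm))
  obtain ⟨i, j, hij⟩ := hcop
  refine ⟨x ^ (j * (m : ℤ)), x ^ (i * ((2 ^ a : ℕ) : ℤ)), zpow_mem (mem_zpowers x) _,
    zpow_mem (mem_zpowers x) _, ?_, ⟨a, ?_⟩, ?_⟩
  · rw [← zpow_add]
    have : j * (m : ℤ) + i * ((2 ^ a : ℕ) : ℤ) = 1 := by linarith
    rw [this, zpow_one]
  · rw [← zpow_natCast, ← zpow_mul]
    have : j * (m : ℤ) * ((2 ^ a : ℕ) : ℤ) = j * (orderOf x : ℤ) := by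
      rw [hoa]; push_cast; ring
    rw [this, mul_comm, zpow_mul, zpow_natCast, pow_orderOf_eq_one, one_zpow]
  · apply Odd.of_dvd_nat hm
    apply orderOf_dvd_of_pow_eq_one
    rw [← zpow_natCast, ← zpow_mul]
    have : i * ((2 ^ a : ℕ) : ℤ) * (m : ℤ) = i * (orderOf x : ℤ) := by
      rw [hoa]; push_cast; ring
    rw [this, mul_comm, zpow_mul, zpow_natCast, pow_orderOf_eq_one, one_zpow]

theorem normalizer_eq_M (H : Hyp A M T)
    (hcore : ∀ Y : Subgroup G, Y ≤ M → Y.Normal → Inv A Y → Y = ⊥) {Y : Subgroup G}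
    (hYM : Y ≤ M) (hne : Y ≠ ⊥) (hY : Inv A Y) (hMN : M ≤ normalizer (Y : Set G)) :
    normalizer (Y : Set G) = M := by
  apply H.hmax _ hMN _ (inv_normalizer hY)
  intro ht
  exact hne (hcore Y hYM (normalizer_eq_top_iff.mp ht) hY)

/-- The Sylow `p`-subgroup of `M` is a Sylow `p`-subgroup of `G`. -/
theorem exists_sylow_part (H : Hyp A M T)
    (hcore : ∀ Y : Subgroup G, Y ≤ M → Y.Normal → Inv A Y → Y = ⊥)
    (p : ℕ) [Fact p.Prime] (hp : p ∣ Nat.card M) :
    ∃ P : Sylow p G, (P : Subgroup G) ≤ M ∧ Inv A (P : Subgroup G) ∧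
      M ≤ normalizer ((P : Subgroup G) : Set G) ∧ (P : Subgroup G) ≠ ⊥ ∧
      ∀ x ∈ M, (∃ k : ℕ, x ^ p ^ k = 1) → x ∈ (P : Subgroup G) := by
  classical
  haveI := H.hnil
  obtain ⟨P₀⟩ : Nonempty (Sylow p M) := inferInstance
  have hiff : Group.IsNilpotent M ↔ ∀ (p : ℕ) (_ : Fact p.Prime) (P : Sylow p M), (P : Subgroup M).Normal :=
    (Group.isNilpotent_of_finite_tfae (G := M)).out 0 3
  have hnorm : (P₀ : Subgroup M).Normal := hiff.mp H.hnil p inferInstance P₀
  set Mp : Subgroup G := (P₀ : Subgroup M).map M.subtype with hMp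
  have hMpM : Mp ≤ M := map_subtype_le _
  have hMpp : IsPGroup p Mp := P₀.isPGroup'.map _
  have hMpne : Mp ≠ ⊥ := by
    intro hb
    have h1 := P₀.ne_bot_of_dvd_card hp
    apply h1
    rw [eq_bot_iff]
    intro x hx
    have : (x : G) ∈ Mp := ⟨x, hx, rfl⟩
    rw [hb, mem_bot] at this
    exact mem_bot.mpr (Subtype.ext this)
  have hinvMp : Inv A Mp := by
    letI := restrictAct M H.hinv
    haveI hchar : (P₀ : Subgroup M).Characteristic := Sylow.characteristic_of_normal P₀ hnorm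
    have h1 := inv_of_characteristic (A := A) (P₀ : Subgroup M)
    rintro a _ ⟨x, hx, rfl⟩
    exact ⟨a • x, h1 a x hx, rfl⟩
  have hMN : M ≤ normalizer (Mp : Set G) := by
    intro m hm
    apply mem_normalizer_of_conj_mem'
    rintro _ ⟨x, hx, rfl⟩
    exact ⟨(⟨m, hm⟩ : M) * x * (⟨m, hm⟩ : M)⁻¹, hnorm.conj_mem x hx _, rfl⟩
  have hN := normalizer_eq_M H hcore hMpM hMpne hinvMp hMN
  have hpel : ∀ x ∈ M, (∃ k : ℕ, x ^ p ^ k = 1) → x ∈ Mp := by
    rintro x hxM ⟨k, hk⟩
    have : (⟨x, hxM⟩ : M) ∈ (P₀ : Subgroup M) :=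
      mem_sylow_of_normal P₀ hnorm (k := k) (Subtype.ext (by simpa using hk))
    exact ⟨_, this, rfl⟩
  obtain ⟨Q, hQ⟩ := hMpp.exists_le_sylow
  have heq : Mp = Q := by
    by_contra hne
    haveI : Group.IsNilpotent (Q : Subgroup G) := Q.isPGroup'.isNilpotent
    have hlt : Mp.subgroupOf Q < ⊤ := by
      refine lt_of_le_of_ne le_top ?_
      intro htop
      apply hne
      apply le_antisymm hQ
      intro x hx
      have h1 : (⟨x, hx⟩ : (Q : Subgroup G)) ∈ Mp.subgroupOf Q := by
        rw [htop]; exact mem_top _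
      exact h1
    have hgrow := Group.normalizerCondition_of_isNilpotent _ hlt
    obtain ⟨x, hx1, hx2⟩ := SetLike.exists_of_lt hgrow
    apply hx2
    have hxN : (x : G) ∈ normalizer (Mp : Set G) := by
      apply mem_normalizer_of_conj_mem'
      intro y hy
      have h1 : (⟨y, hQ hy⟩ : (Q : Subgroup G)) ∈ Mp.subgroupOf Q := hy
      exact (mem_normalizer_iff.mp hx1 _).mp h1
    rw [hN] at hxN
    obtain ⟨k, hk⟩ := exists_pow_eq_one_of_mem Q.isPGroup' x.2
    exact hpel _ hxN ⟨k, hk⟩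
  refine ⟨Q, ?_, ?_, ?_, ?_, ?_⟩ <;> rw [← heq]
  · exact hMpM
  · exact hinvMp
  · exact hMN
  · exact hMpne
  · exact hpel

theorem odd_complement (H : Hyp A M T)
    (hcore : ∀ Y : Subgroup G, Y ≤ M → Y.Normal → Inv A Y → Y = ⊥)
    (p : ℕ) [Fact p.Prime] (hp2 : p ≠ 2) (hp : p ∣ Nat.card M) : HasNormalPComplement p G := by
  classical
  obtain ⟨P, hPM, hPinv, hMN, hPne, -⟩ := exists_sylow_part H hcore p hp
  rw [Cfsg.Agent.S0117.result hp2 P]
  have hWne := centerThompsonOf_ne_bot p (P : Subgroup G) P.isPGroup' hPne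
  have hWinv := inv_centerThompson (A := A) p hPinv
  have hWP : centerThompsonOf p (P : Subgroup G) ≤ P := by
    intro x hx
    obtain ⟨y, _, rfl⟩ := hx.1
    exact y.2
  have hMW : M ≤ normalizer ((centerThompsonOf p (P : Subgroup G) : Subgroup G) : Set G) := by
    intro m hm
    apply mem_normalizer_of_conj_mem'
    intro x hx
    exact centerThompsonOf_inv p (MulAut.conj m) (P : Subgroup G)
      (fun y => by
        have := mem_normalizer_iff.mp (hMN hm) y
        simpa using this.symm) hx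
  have hN := normalizer_eq_M H hcore (hWP.trans hPM) hWne hWinv hMW
  rw [hN]
  haveI := H.hnil
  exact hasNormalPComplement_of_isNilpotent p

theorem two_complement (H : Hyp A M T)
    (hcore : ∀ Y : Subgroup G, Y ≤ M → Y.Normal → Inv A Y → Y = ⊥)
    (hA : Odd (Nat.card A)) (hp : 2 ∣ Nat.card M) : HasNormalPComplement 2 G := by
  classical
  haveI : Fact (Nat.Prime 2) := ⟨Nat.prime_two⟩
  obtain ⟨P, hPM, hPinv, hMN, hPne, hpel⟩ := exists_sylow_part H hcore 2 hp
  haveI := H.hnil
  have hPT : (P : Subgroup G) ≤ T := by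
    intro x hx
    obtain ⟨k, hk, hk'⟩ := H.hTk x (hPM hx)
    obtain ⟨e, he⟩ := exists_pow_eq_one_of_mem P.isPGroup' hx
    have hodd : k.Coprime (orderOf x) := by
      have h1 : orderOf x ∣ 2 ^ e := orderOf_dvd_of_pow_eq_one he
      exact Nat.Coprime.coprime_dvd_right h1 (Nat.Coprime.pow_right _ (Nat.coprime_two_right.mpr hk))
    obtain ⟨m, hm⟩ := exists_pow_eq_self_of_coprime hodd
    rw [← hm]
    exact pow_mem hk' m
  have hcomm : ∀ u ∈ M, Odd (orderOf u) → ∀ t ∈ (P : Subgroup G), u * t = t * u := by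
    intro u hu hodd t ht
    obtain ⟨e, he⟩ := exists_pow_eq_one_of_mem P.isPGroup' ht
    have h1 : orderOf t ∣ 2 ^ e := orderOf_dvd_of_pow_eq_one he
    have hcop : (orderOf (⟨u, hu⟩ : M)).Coprime (orderOf (⟨t, hPM ht⟩ : M)) := by
      rw [Subgroup.orderOf_mk, Subgroup.orderOf_mk]
      exact Nat.Coprime.coprime_dvd_right h1 (Nat.Coprime.pow_right _ (Nat.coprime_two_right.mpr hodd))
    have := (commute_of_coprime_orderOf hcop).eq
    exact congrArg Subtype.val this
  obtain ⟨N, hN, hNc⟩ := main2 (A := A) P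
    (fun x hx y hy s hs => H.hTcl x (hPT hx) y (hPT hy) s (hPT hs))
    (MulDistribMulAction.toMulAut A G) hA
    (fun a x => (hPinv.smul_mem_iff a x).symm)
    (by
      intro Y hYS hYne hSN hYinv g hg hodd
      have hMY : M ≤ normalizer (Y : Set G) := by
        intro m hm
        obtain ⟨s, u, hs, hu, rfl, hs2, hu2⟩ := exists_two_odd_split m
        have hsM : s ∈ M := (zpowers_le.mpr hm) hs
        have huM : u ∈ M := (zpowers_le.mpr hm) hu
        refine mul_mem (hSN (hpel s hsM hs2)) ?_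
        apply mem_normalizer_of_conj_mem'
        intro y hy
        have := hcomm u huM hu2 y (hYS hy)
        rw [this]
        simpa using hy
      have hNY := normalizer_eq_M H hcore (hYS.trans hPM) hYne hYinv hMY
      rw [hNY] at hg
      rw [mem_centralizer_iff]
      intro t ht
      exact (hcomm g hg hodd t ht).symm)
  exact ⟨P, N, hN, hNc⟩

/-- Membership in a normal `p`-complement. -/
theorem mem_complement_iff {p : ℕ} [Fact p.Prime] {X : Type*} [Group X] [Finite X] (P : Sylow p X)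
    {N : Subgroup X} (hN : N.Normal) (hc : N.IsComplement' (P : Subgroup X)) (x : X) :
    x ∈ N ↔ (orderOf x).Coprime p := by
  have hi : (P : Subgroup X).index = Nat.card N := hc.index_eq_card
  have hi2 : N.index = Nat.card (P : Subgroup X) := hc.symm.index_eq_card
  constructor
  · intro hx
    have h1 : orderOf x ∣ Nat.card N := by
      have := orderOf_dvd_natCard (⟨x, hx⟩ : N)
      rwa [Subgroup.orderOf_mk] at this
    rw [← hi] at h1
    refine Nat.Coprime.symm ((Nat.Prime.coprime_iff_not_dvd Fact.out).mpr fun h => ?_)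
    exact P.not_dvd_index (h.trans h1)
  · intro hx
    have h1 := Subgroup.pow_index_mem N x
    obtain ⟨n, hn⟩ := IsPGroup.iff_card.mp P.isPGroup'
    rw [hi2, hn] at h1
    have hcop : (p ^ n).Coprime (orderOf x) := Nat.Coprime.pow_left _ hx.symm
    obtain ⟨m, hm⟩ := exists_pow_eq_self_of_coprime hcop
    rw [← hm]
    exact pow_mem h1 m

/-- The subgroup of elements of order prime to `m`, in a group with normal `p`-complements for all
primes `p` dividing `m`. -/
theorem exists_K {X : Type*} [Group X] [Finite X] (m : ℕ)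
    (hc : ∀ p ∈ m.primeFactors, HasNormalPComplement p X) (hm : m ≠ 0) :
    ∃ K : Subgroup X, K.Normal ∧ ∀ x, x ∈ K ↔ (orderOf x).Coprime m := by
  classical
  let I := {p : ℕ // p ∈ m.primeFactors}
  have hI : ∀ i : I, i.1.Prime := fun i => Nat.prime_of_mem_primeFactors i.2
  choose P K hKn hKc using fun i : I => hc i.1 i.2
  refine ⟨⨅ i, K i, ?_, ?_⟩
  · exact Subgroup.normal_iInf_normal hKn
  · intro x
    rw [Subgroup.mem_iInf]
    constructor
    · intro h
      by_contra hnc
      obtain ⟨p, hp, hp1, hp2⟩ := Nat.Prime.not_coprime_iff_dvd.mp hnc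
      let i : I := ⟨p, Nat.mem_primeFactors.mpr ⟨hp, hp2, hm⟩⟩
      haveI : Fact i.1.Prime := ⟨hp⟩
      have h3 := (mem_complement_iff (P i) (hKn i) (hKc i) x).mp (h i)
      exact (Nat.Prime.coprime_iff_not_dvd hp).mp h3.symm hp1
    · intro h i
      haveI : Fact i.1.Prime := ⟨hI i⟩
      rw [mem_complement_iff (P i) (hKn i) (hKc i) x]
      exact Nat.Coprime.coprime_dvd_right (Nat.dvd_of_mem_primeFactors i.2) h

/-- A Sylow `q`-subgroup of `K` invariant under `M` and `A`, when `K` is acted on coprimely. -/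
theorem exists_inv_sylow_MA {K : Subgroup G} [hKn : K.Normal] (hK : Inv A K) (hM : Inv A M)
    (hs : Group.IsSolvable M) (hAs : Group.IsSolvable A)
    (hc1 : (Nat.card M).Coprime (Nat.card K)) (hc2 : (Nat.card A).Coprime (Nat.card K))
    (q : ℕ) [Fact q.Prime] :
    ∃ P : Sylow q K, (∀ a : A, ∀ x : K, x ∈ (P : Subgroup K) → ∃ y ∈ (P : Subgroup K), (y : G) = a • (x : G)) ∧
      (∀ m ∈ M, ∀ x : K, x ∈ (P : Subgroup K) → ∃ y ∈ (P : Subgroup K), (y : G) = m * x * m⁻¹) := by
  classical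
  letI actM := restrictAct (A := A) M hM
  letI actK := restrictAct (A := A) K hK
  let ψ : A →* MulAut M := MulDistribMulAction.toMulAut A M
  let f₁ : M →* MulAut K := (MulAut.conjNormal (H := K)).comp M.subtype
  let f₂ : A →* MulAut K := MulDistribMulAction.toMulAut A K
  have hcompat : ∀ a, f₁.comp (ψ a).toMonoidHom = (MulAut.conj (f₂ a)).toMonoidHom.comp f₁ := by
    intro a
    ext m k
    show ((a • (m : G)) * (k : G) * (a • (m : G))⁻¹) = a • ((m : G) * (a⁻¹ • (k : G)) * (m : G)⁻¹)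
    simp [smul_mul', smul_inv']
  let Θ : M ⋊[ψ] A →* MulAut K := SemidirectProduct.lift f₁ f₂ hcompat
  letI actB : MulDistribMulAction (M ⋊[ψ] A) K := MulDistribMulAction.compHom K Θ
  haveI : Finite (M ⋊[ψ] A) := Finite.of_equiv (M × A) SemidirectProduct.equivProd.symm
  have hcard : Nat.card (M ⋊[ψ] A) = Nat.card M * Nat.card A := by
    rw [Nat.card_congr SemidirectProduct.equivProd, Nat.card_prod]
  have hcop : (Nat.card (M ⋊[ψ] A)).Coprime (Nat.card K) := by
    rw [hcard]
    exact Nat.Coprime.mul_left hc1 hc2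
  have hsolv : Group.IsSolvable (M ⋊[ψ] A) :=
    Group.isSolvable_of_ker_le_range (SemidirectProduct.inl : M →* M ⋊[ψ] A)
      (SemidirectProduct.rightHom : M ⋊[ψ] A →* A)
      (by rw [SemidirectProduct.range_inl_eq_ker_rightHom])
  obtain ⟨P, hP⟩ := exists_inv_sylow (A := M ⋊[ψ] A) (G := K) hcop (Or.inl hsolv) q
  refine ⟨P, ?_, ?_⟩
  · intro a x hx
    have h1 := hP (SemidirectProduct.inr a) x hx
    refine ⟨_, h1, ?_⟩
    show ((Θ (SemidirectProduct.inr a)) x : G) = a • (x : G)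
    rw [SemidirectProduct.lift_inr]
    rfl
  · intro m hm x hx
    have h1 := hP (SemidirectProduct.inl ⟨m, hm⟩) x hx
    refine ⟨_, h1, ?_⟩
    show ((Θ (SemidirectProduct.inl ⟨m, hm⟩)) x : G) = m * x * m⁻¹
    rw [SemidirectProduct.lift_inl]
    rfl

theorem solvable_core_free (H : Hyp A M T)
    (hcore : ∀ Y : Subgroup G, Y ≤ M → Y.Normal → Inv A Y → Y = ⊥)
    (hcop : (Nat.card A).Coprime (Nat.card G)) (hA : Odd (Nat.card A))
    (hAs : Group.IsSolvable A) : Group.IsSolvable G := by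
  classical
  haveI := H.hnil
  have hm0 : Nat.card M ≠ 0 := Nat.card_pos.ne'
  have hcompl : ∀ p ∈ (Nat.card M).primeFactors, HasNormalPComplement p G := by
    intro p hp
    have hpp := Nat.prime_of_mem_primeFactors hp
    haveI : Fact p.Prime := ⟨hpp⟩
    have hpd := Nat.dvd_of_mem_primeFactors hp
    by_cases h2 : p = 2
    · subst h2
      exact two_complement H hcore hA hpd
    · exact odd_complement H hcore p h2 hpd
  obtain ⟨K, hKn, hKm⟩ := exists_K (X := G) _ hcompl hm0
  haveI := hKn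
  have hidx : M.index ≠ 1 := fun h => H.htop (Subgroup.index_eq_one.mp h)
  obtain ⟨q, hq, hqd⟩ := Nat.exists_prime_and_dvd hidx
  haveI : Fact q.Prime := ⟨hq⟩
  have hqM : ¬ q ∣ Nat.card M := by
    intro hd
    obtain ⟨P, hPM, -⟩ := exists_sylow_part H hcore q hd
    exact P.not_dvd_index (hqd.trans (Subgroup.index_dvd_of_le hPM))
  have hqG : q ∣ Nat.card G := hqd.trans (Subgroup.index_dvd_card M)
  obtain ⟨x, hx⟩ := exists_prime_orderOf_dvd_card' q hqG
  have hxK : x ∈ K := (hKm x).mpr (by rw [hx]; exact (Nat.Prime.coprime_iff_not_dvd hq).mpr hqM)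
  have hqK : q ∣ Nat.card K := by
    have := orderOf_dvd_natCard (⟨x, hxK⟩ : K)
    rwa [Subgroup.orderOf_mk, hx] at this
  have hKinv : Inv A K := by
    intro a y hy
    rw [hKm] at hy ⊢
    have : orderOf (a • y) = orderOf y :=
      orderOf_injective (MulDistribMulAction.toMulAut A G a).toMonoidHom (MulEquiv.injective _) y
    rwa [this]
  have hKM : ∀ y ∈ K, y ∈ M → y = 1 := by
    intro y hy hyM
    have h1 := (hKm y).mp hy
    have h2 : orderOf y ∣ Nat.card M := Subgroup.orderOf_dvd_natCard M hyM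
    exact orderOf_eq_one_iff.mp (Nat.Coprime.eq_one_of_dvd h1 h2)
  have hc1 : (Nat.card M).Coprime (Nat.card K) := by
    by_contra hnc
    obtain ⟨p, hp, hp1, hp2⟩ := Nat.Prime.not_coprime_iff_dvd.mp hnc
    haveI : Fact p.Prime := ⟨hp⟩
    obtain ⟨y, hy⟩ := exists_prime_orderOf_dvd_card' p hp2
    have := (hKm y).mp y.2
    rw [Subgroup.orderOf_coe, hy] at this
    exact (Nat.Prime.coprime_iff_not_dvd hp).mp this hp1
  have hc2 : (Nat.card A).Coprime (Nat.card K) :=
    Nat.Coprime.coprime_dvd_right (Subgroup.card_subgroup_dvd_card K) hcop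
  obtain ⟨P, hP1, hP2⟩ := exists_inv_sylow_MA (A := A) (M := M) hKinv H.hinv inferInstance hAs hc1 hc2 q
  set Q : Subgroup G := (P : Subgroup K).map K.subtype with hQdef
  have hQne : Q ≠ ⊥ := by
    intro hb
    have h1 := P.ne_bot_of_dvd_card hqK
    apply h1
    rw [eq_bot_iff]
    intro y hy
    have : (y : G) ∈ Q := ⟨y, hy, rfl⟩
    rw [hb, mem_bot] at this
    exact mem_bot.mpr (Subtype.ext this)
  have hQinv : Inv A Q := by
    rintro a _ ⟨y, hy, rfl⟩
    obtain ⟨z, hz, hzz⟩ := hP1 a y hy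
    exact ⟨z, hz, hzz⟩
  have hMQ : M ≤ normalizer (Q : Set G) := by
    intro m hm
    apply mem_normalizer_of_conj_mem'
    rintro _ ⟨y, hy, rfl⟩
    obtain ⟨z, hz, hzz⟩ := hP2 m hm y hy
    exact ⟨z, hz, hzz⟩
  have htop : M ⊔ Q = ⊤ := by
    by_contra hne
    have h1 := H.hmax _ le_sup_left hne (inv_sup H.hinv hQinv)
    apply hQne
    rw [eq_bot_iff]
    rintro _ ⟨y, hy, rfl⟩
    have hyM : (y : G) ∈ M := by
      rw [← h1]
      exact mem_sup_right ⟨y, hy, rfl⟩
    exact mem_bot.mpr (hKM y y.2 hyM)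
  have hQn : Q.Normal := by
    rw [← normalizer_eq_top_iff, eq_top_iff, ← htop]
    exact sup_le hMQ Subgroup.le_normalizer
  haveI := hQn
  have hQs : Group.IsSolvable Q := by
    have hp : IsPGroup q Q := P.isPGroup'.map _
    haveI := hp.isNilpotent
    infer_instance
  haveI : Group.IsSolvable (G ⧸ Q) := by
    refine Group.isSolvable_of_surjective (f := (QuotientGroup.mk' Q).comp M.subtype) ?_
    intro y
    obtain ⟨g, rfl⟩ := QuotientGroup.mk'_surjective Q y
    have hg : g ∈ M ⊔ Q := by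
      rw [htop]
      exact mem_top g
    obtain ⟨m, hm, z, hz, rfl⟩ := Subgroup.mem_sup_of_normal_right.mp hg
    refine ⟨⟨m, hm⟩, ?_⟩
    simp only [MonoidHom.comp_apply, Subgroup.subtype_apply]
    apply QuotientGroup.eq.mpr
    simpa using hz
  exact Group.isSolvable_of_ker_le_range Q.subtype (QuotientGroup.mk' Q)
    (by rw [QuotientGroup.ker_mk', Subgroup.range_subtype])

end main

section induction

variable {A : Type v} [Group A] [Finite A]

theorem solvable_of_hyp (hA : Odd (Nat.card A)) (hAs : Group.IsSolvable A) (n : ℕ) :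
    ∀ (G : Type u) [Group G] [Finite G] [MulDistribMulAction A G] (M T : Subgroup G),
      Nat.card G = n → (Nat.card A).Coprime (Nat.card G) → Hyp A M T → Group.IsSolvable G := by
  induction n using Nat.strong_induction_on with
  | _ n ih =>
    intro G _ _ _ M T hn hcop H
    by_cases hcore : ∀ Y : Subgroup G, Y ≤ M → Y.Normal → Inv A Y → Y = ⊥
    · exact solvable_core_free H hcore hcop hA hAs
    · push Not at hcore
      obtain ⟨Y, hYM, hYn, hYinv, hYne⟩ := hcore
      haveI := hYn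
      letI act : MulDistribMulAction A (G ⧸ Y) := quotAction Y hYinv
      have hcard : Nat.card G = Nat.card Y * Nat.card (G ⧸ Y) := by
        rw [← Subgroup.card_mul_index Y]
        rfl
      have h1Y : 1 < Nat.card Y := by
        have h0 : Nat.card Y ≠ 0 := Nat.card_pos.ne'
        have h1 : Nat.card Y ≠ 1 := fun h => hYne (Subgroup.card_eq_one.mp h)
        omega
      have hQpos : 0 < Nat.card (G ⧸ Y) := Nat.card_pos
      have hlt : Nat.card (G ⧸ Y) < n := by
        rw [← hn, hcard]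
        nlinarith
      have hcopQ : (Nat.card A).Coprime (Nat.card (G ⧸ Y)) :=
        Nat.Coprime.coprime_dvd_right ⟨Nat.card Y, by rw [hcard, mul_comm]⟩ hcop
      have hQ : Group.IsSolvable (G ⧸ Y) := ih _ hlt (G ⧸ Y) _ _ rfl hcopQ (H.quot hYinv hYM)
      haveI := H.hnil
      haveI : Group.IsNilpotent Y := Cfsg.Agent.Lib.Nilpotent.Fitting.isNilpotent_of_le hYM H.hnil
      exact Group.isSolvable_of_ker_le_range Y.subtype (QuotientGroup.mk' Y)
        (by rw [QuotientGroup.ker_mk', Subgroup.range_subtype])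

end induction

/-- The main theorem, for a group `A` of odd order known to be solvable. -/
theorem solvable_of_nil_max {G : Type u} {A : Type v} [Group G] [Finite G] [Group A] [Finite A]
    (φ : A →* MulAut G) (hcop : (Nat.card A).Coprime (Nat.card G))
    (hA : Odd (Nat.card A)) (hAs : Group.IsSolvable A)
    (M : Subgroup G) (hMtop : M ≠ ⊤) (hMinv : ∀ a : A, ∀ m : G, m ∈ M → φ a m ∈ M)
    (hMmax : ∀ H : Subgroup G, M ≤ H → H ≠ ⊤ → (∀ a : A, ∀ h : G, h ∈ H → φ a h ∈ H) → H = M)
    (hnil : Group.IsNilpotent M)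
    (h2 : ∀ S : Sylow 2 ↥M, Group.nilpotencyClass ↥(S : Subgroup ↥M) ≤ 2) :
    Group.IsSolvable G := by
  classical
  letI act : MulDistribMulAction A G := MulDistribMulAction.compHom G φ
  haveI : Fact (Nat.Prime 2) := ⟨Nat.prime_two⟩
  obtain ⟨T₀⟩ : Nonempty (Sylow 2 M) := inferInstance
  have hiff : Group.IsNilpotent M ↔ ∀ (p : ℕ) (_ : Fact p.Prime) (P : Sylow p M), (P : Subgroup M).Normal :=
    (Group.isNilpotent_of_finite_tfae (G := M)).out 0 3
  have hnorm : (T₀ : Subgroup M).Normal := hiff.mp hnil 2 inferInstance T₀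
  haveI := hnorm
  haveI hTn : Group.IsNilpotent (T₀ : Subgroup M) := T₀.isPGroup'.isNilpotent
  have hlow : (⊤ : Subgroup (T₀ : Subgroup M)).lowerCentralSeries 2 = ⊥ :=
    Subgroup.lowerCentralSeries_eq_bot_iff_nilpotencyClass_le.mpr (h2 T₀)
  refine solvable_of_hyp (A := A) hA hAs _ G M ((T₀ : Subgroup M).map M.subtype) rfl hcop
    ⟨hMtop, hMinv, hMmax, hnil, map_subtype_le _, T₀.isPGroup'.map _, ?_, ?_⟩
  · intro y hy
    refine ⟨(T₀ : Subgroup M).index, ?_, ⟨⟨y, hy⟩ ^ (T₀ : Subgroup M).index,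
      Subgroup.pow_index_mem _ _, by simp⟩⟩
    exact Nat.odd_iff.mpr (by
      have h1 := T₀.not_dvd_index
      omega)
  · rintro _ ⟨x, hx, rfl⟩ _ ⟨y, hy, rfl⟩ _ ⟨s, hs, rfl⟩
    have h1 : ⁅⁅(⟨x, hx⟩ : (T₀ : Subgroup M)), (⟨y, hy⟩ : (T₀ : Subgroup M))⁆, (⟨s, hs⟩ : (T₀ : Subgroup M))⁆
        ∈ (⊤ : Subgroup (T₀ : Subgroup M)).lowerCentralSeries 2 := by
      rw [Subgroup.lowerCentralSeries_succ]
      apply Subgroup.commutator_mem_commutator _ (mem_top _)
      rw [Subgroup.lowerCentralSeries_succ]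
      apply Subgroup.commutator_mem_commutator _ (mem_top _)
      simp
    rw [hlow, mem_bot, commutatorElement_eq_one_iff_mul_comm] at h1
    have h3 := congrArg (fun z : (T₀ : Subgroup M) => ((z : M) : G)) h1
    simp only [commutatorElement_def, Subgroup.coe_mul, Subgroup.coe_inv, Subgroup.subtype_apply] at h3 ⊢
    exact h3

end Cfsg.Agent.Lib.NilMax
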